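import Cfsg.Agent.H75.ReeCover.Defs
import Cfsg.Agent.H70.F4Mult.Roots
import Cfsg.Agent.H65.Twist.F4Statements

/-!
# The cosets of the parabolic subgroup of the highest root line and their opposite factorisations
-/

set_option autoImplicit false
set_option maxRecDepth 100000

open Cfsg.Lie Cfsg.Agent.H46 Cfsg.Agent.H65.Twist Cfsg.Agent.H70.F4Out Cfsg.Agent.H70.F4Mult
open scoped Matrix MatrixGroups

namespace Cfsg.Agent.H75.ReeCover

/-- The words of the reflections representing the nontrivial cosets. -/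
def repWords : List (List (Fin 2)) := [[0], [0, 1, 0], [0, 1, 0, 1, 0], [0, 1, 0, 1, 0, 1, 0]]

/-- A split of each word as a conjugate of a fundamental reflection. -/
def repSplit : List (List (Fin 2) × Fin 2) := [([], 0), ([0], 1), ([0, 1], 0), ([0, 1, 0], 1)]

/-- The index of a word in the twisted Weyl group. -/
def idxW (L : List (Fin 2)) : DihedralGroup 8 := (L.map f4Gen).prod

/-- The image of a root under the product of a word. -/
def permN (L : List (Fin 2)) (r : ℕ) : ℕ := appR f4Wn (f4Word (idxW L)) r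

/-- The positive roots outside the Levi class. -/
def isRad (r : ℕ) : Bool := decide (24 ≤ r ∧ r < 48 ∧ r ∉ [25, 27, 28, 30])

/-- The roots of the class of a split. -/
def clsN (j : Fin 2) : List ℕ := [[24, 33], [25, 27, 28, 30]].getD j.val []

theorem weyl_cases : ∀ d : DihedralGroup 8,
    (appR f4Wn (f4Word d) 47 = 47 → d = 1 ∨ d = f4Gen 1) ∧
      (appR f4Wn (f4Word d) 47 ≠ 47 → ∃ L ∈ repWords, ∃ A ∈ [1, f4Gen 1], ∃ B ∈ [1, f4Gen 1],
        d = A * idxW L * B) := by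
  decide +kernel

/-- The longest element as a word. -/
def topL : List (Fin 2) := [0, 1, 0, 1, 0, 1, 0, 1]

theorem split_facts : ∀ p ∈ repSplit,
    p.1 ++ p.2 :: p.1.reverse ∈ repWords ∧
      (∀ r ∈ clsN p.2, 24 ≤ permN p.1 r ∧ permN p.1 r < 48) ∧
      (∀ r ∈ clsN p.2, isRad (permN (topL.reverse ++ p.1 ++ [p.2]) r) = true) := by
  decide +kernel

theorem repWords_split : ∀ L ∈ repWords, ∃ p ∈ repSplit, L = p.1 ++ p.2 :: p.1.reverse := by
  decide +kernel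

variable {K : Type*} [Field K] [Fintype K] [CharP K 2] {m : ℕ} (hK : Fintype.card K = 2 ^ (2 * m + 1))

/-- The product of the representatives along a word. -/
noncomputable def nw (L : List (Fin 2)) : ↥(chevF4.group K) := (L.map (TD hK).nS).prod

theorem nw_cons (j : Fin 2) (L : List (Fin 2)) : nw hK (j :: L) = (TD hK).nS j * nw hK L := by simp [nw]

theorem nw_append (L L' : List (Fin 2)) : nw hK (L ++ L') = nw hK L * nw hK L' := by simp [nw]

theorem nw_single (j : Fin 2) : nw hK [j] = (TD hK).nS j := by simp [nw]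

theorem nw_reverse : ∀ L : List (Fin 2), nw hK L.reverse = (nw hK L)⁻¹
  | [] => by simp [nw]
  | j :: L => by rw [List.reverse_cons, nw_append, nw_reverse L, nw_single, nw_cons, mul_inv_rev, nS_inv hK j]

theorem nw_mem : ∀ L : List (Fin 2), nw hK L ∈ (TD hK).N0
  | [] => by simp [nw]
  | j :: L => by rw [nw_cons]; exact mul_mem ((TD hK).nS_mem_N0 j) (nw_mem L)

theorem mon_of_N0 {g : ↥(chevF4.group K)} (hg : g ∈ (TD hK).N0) :
    (g : GL chevF4.Idx K) ∈ chevF4.monomialSubgroup K := (TD hK).N0_le_N hg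

theorem perm_nw : ∀ L : List (Fin 2),
    goodF4.perm (nw hK L : GL chevF4.Idx K) = (f4Table K hK).perm (idxW L)
  | [] => by
    rw [show idxW [] = 1 from rfl, WeylTable.perm_one]
    exact goodF4.perm_diagonal (one_mem _)
  | j :: L => by
    have h1 : goodF4.perm ((TD hK).nS j : GL chevF4.Idx K) = (f4Table K hK).perm (f4Gen j) := by
      have := (f4Table K hK).perm_gen 1 j
      rw [WeylTable.perm_one, one_mul, one_mul] at this
      exact this
    have hn : ((TD hK).nS j : GL chevF4.Idx K) ∈ chevF4.monomialSubgroup K := (f4Setup K hK).nS_mon j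
    rw [nw_cons, Subgroup.coe_mul, goodF4.perm_mul hn (mon_of_N0 hK (nw_mem hK L)), perm_nw L, h1,
      (f4Table K hK).perm_mul]
    rfl

theorem perm_nw_val (L : List (Fin 2)) (r : Fin chevF4.nroots) :
    (goodF4.perm (nw hK L : GL chevF4.Idx K) r).val = permN L r.val := by
  rw [perm_nw]
  exact (f4Table K hK).perm_repW _ _

omit [Fintype K] [CharP K 2] in
theorem posSub_radical : chevF4.unipotentRadical K J1 = goodF4.posSub (F := K) (goodF4.radSet J1) :=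
  goodF4.unipotentRadical_eq

include hK in
theorem mem_radSet {r : ℕ} (h : isRad r = true) : chevF4.IsPosRoot r ∧ r ∈ goodF4.radSet J1 := by
  simp only [isRad, decide_eq_true_eq] at h
  have hp : chevF4.IsPosRoot r := goodF4.isPosRoot_iff.2 ⟨h.1, h.2.1⟩
  refine ⟨hp, hp, fun hin => h.2.2 ?_⟩
  have hc := ((f4Setup K hK).cls_pos 1 ⟨r, h.2.1⟩).2 ⟨hp, hin⟩
  have he : ∀ x : Fin chevF4.nroots, x ∈ f4ClsF 1 → x.val ∈ [25, 27, 28, 30] := by decide +kernel
  exact he _ hc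

theorem cls_val (j : Fin 2) {x : ↥(chevF4.group K)} (hx : x ∈ (TD hK).X1 j) :
    (x : GL chevF4.Idx K) ∈ goodF4.posSub (F := K) {r | r ∈ clsN j} := by
  obtain rfl | rfl : j = 0 ∨ j = 1 := by omega
  · obtain ⟨t, rfl⟩ := mem_X0 hK hx
    exact pairU_posSub t
  · obtain ⟨t, u, rfl⟩ := mem_X1 hK hx
    exact b2U_posSub t u

theorem conj_cls_pos {L : List (Fin 2)} {j : Fin 2}
    (h : ∀ r ∈ clsN j, 24 ≤ permN L r ∧ permN L r < 48) {x : ↥(chevF4.group K)} (hx : x ∈ (TD hK).X1 j) :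
    nw hK L * x * (nw hK L)⁻¹ ∈ Fix (K := K) := by
  refine posUnipotent_le_Fix (Subgroup.mem_subgroupOf.2 ?_)
  rw [goodF4.posUnipotent_eq, Subgroup.coe_mul, Subgroup.coe_mul, Subgroup.coe_inv]
  refine conj_posSub (mon_of_N0 hK (nw_mem hK L)) (fun r hr => ?_) (cls_val hK j hx)
  rw [perm_nw_val]
  exact ⟨Set.mem_univ _, (h r hr).1⟩

theorem conj_cls_rad {L : List (Fin 2)} {j : Fin 2}
    (h : ∀ r ∈ clsN j, isRad (permN L r) = true) {x : ↥(chevF4.group K)} (hx : x ∈ (TD hK).X1 j) :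
    nw hK L * x * (nw hK L)⁻¹ ∈ UP K := by
  rw [UP, Subgroup.mem_subgroupOf, posSub_radical, Subgroup.coe_mul, Subgroup.coe_mul, Subgroup.coe_inv]
  refine conj_posSub (mon_of_N0 hK (nw_mem hK L)) (fun r hr => ?_) (cls_val hK j hx)
  rw [perm_nw_val]
  have := h r hr
  refine ⟨(mem_radSet hK this).2, ?_⟩
  simp only [isRad, decide_eq_true_eq] at this
  exact this.1

/-- The opposite radical. -/
noncomputable def UN : Subgroup ↥(chevF4.group K) := (UP K).map (MulAut.conj (nw hK topL)).toMonoidHom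

theorem mem_UN_iff {g : ↥(chevF4.group K)} : g ∈ UN hK ↔ (nw hK topL)⁻¹ * g * nw hK topL ∈ UP K := by
  constructor
  · rintro ⟨y, hy, rfl⟩
    simpa [mul_assoc] using hy
  · intro h
    exact ⟨_, h, by simp [mul_assoc]⟩

theorem H0_mem_levi {h : ↥(chevF4.group K)} (hh : h ∈ (TD hK).H0) :
    (h : GL chevF4.Idx K) ∈ chevF4.leviSubgroup K J1 := Subgroup.mem_sup_left hh.1

theorem H0_mem_Pst {h : ↥(chevF4.group K)} (hh : h ∈ (TD hK).H0) : h ∈ Pst (K := K) := by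
  obtain ⟨z, hz⟩ := goodF4.mem_diagonal.1 (Subgroup.mem_subgroupOf.1 hh.1)
  obtain rfl : h = torusE goodF4 z := Subtype.ext hz
  exact torusE_mem_Pst z

theorem UN_conj_H0 {s g : ↥(chevF4.group K)} (hs : s ∈ (TD hK).H0) (hg : g ∈ UN hK) : s * g * s⁻¹ ∈ UN hK := by
  rw [mem_UN_iff] at hg ⊢
  have h := (TD hK).H0_normal (inv_mem (nw_mem hK topL)) hs
  rw [inv_inv] at h
  have := parabolic_normalizes (H0_mem_levi hK h) hg
  convert this using 1
  group

/-- The exponents of the highest root in the weights. -/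
def chiW (w : (ℤ × ℤ) × (ℤ × ℤ)) : ℤ × ℤ :=
  (2 * w.1.2 + 2 * w.1.1 + 4 * w.2.2 + 3 * w.2.1, w.1.1 + 2 * w.1.2 + 2 * w.2.1 + 3 * w.2.2)

theorem chi_wt {h : ↥(chevF4.group K)} {α β : Kˣ} (w : Wt hK h α β) :
    chi h = ((phiU K m α * α ^ 2 * phiU K m β ^ 2 * β ^ 3 : Kˣ) : K) := by
  obtain ⟨z, hz⟩ := goodF4.mem_diagonal.1 (Subgroup.mem_subgroupOf.1 (Subgroup.mem_inf.1 w.1).1)
  obtain rfl : h = torusE goodF4 z := Subtype.ext hz
  have hzf := (f4Setup K hK).W_fixed _ (Subgroup.mem_inf.1 w.1).2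
  have a24 : goodF4.torusVal z 24 = α := Units.ext (by
    have := pairU_injective ((torus_conj_pairU hK hzf 1).symm.trans (w.2.1 1))
    simpa using this)
  have b25 : goodF4.torusVal z 25 = β := Units.ext (by
    have := (b2U_injective ((torus_conj_b2U hK hzf 1 0).symm.trans (w.2.2 1 0))).1
    simpa using this)
  have p33 : goodF4.torusVal z 24 = phiU K m (goodF4.torusVal z 33) :=
    Units.ext ((torus_fixed_f4 hK z).1 hzf).1
  have p27 : goodF4.torusVal z 25 = phiU K m (goodF4.torusVal z 27) :=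
    Units.ext ((torus_fixed_f4 hK z).1 hzf).2
  have hex : goodF4.torusVal z 47 = goodF4.torusVal z 33 ^ 2 * goodF4.torusVal z 27 ^ 4 *
      goodF4.torusVal z 25 ^ 3 * goodF4.torusVal z 24 ^ 2 := by
    obtain ⟨s0, s1, s2, s3, -⟩ := f4_simple_facts
    have hc : ∀ k : Fin chevF4.rank, goodF4.rc 47 k = ([2, 4, 3, 2] : List ℤ).getD k.val 0 := by decide +kernel
    rw [Cfsg.Agent.H23.RegularTorus.torusVal_eq_prod goodF4 z 47]
    have h4 : ∀ (f : Fin chevF4.rank → Kˣ), ∏ k, f k = f ⟨0, by decide⟩ * f ⟨1, by decide⟩ * f ⟨2, by decide⟩ *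
        f ⟨3, by decide⟩ := fun f => Fin.prod_univ_four f
    rw [h4]
    simp only [hc, s0, s1, s2, s3, List.getD_cons_zero, List.getD_cons_succ]
    simp only [← zpow_natCast, Nat.cast_ofNat]
  rw [chi_torusE, hex, ← a24, ← b25, p33, p27, phiU_phiU hK, phiU_phiU hK]
  refine congrArg Units.val ?_
  simp only [← pow_mul]
  simp only [mul_assoc, mul_comm, mul_left_comm]

omit [Fintype K] in
theorem val_add (c : Kˣ) (x y : ℤ × ℤ) : val m c x * val m c y = val m c (x.1 + y.1, x.2 + y.2) := by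
  simp only [val, zpow_add]
  exact mul_mul_mul_comm _ _ _ _

include hK in
theorem val_phi (c : Kˣ) (x : ℤ × ℤ) : phiU K m (val m c x) = val m c (2 * x.2, x.1) := by
  rw [val, val, map_mul, map_zpow, map_zpow, phiU_phiU hK, ← zpow_natCast, ← zpow_mul, Nat.cast_ofNat, mul_comm]

theorem chi_val {h : ↥(chevF4.group K)} {c : Kˣ} {w : (ℤ × ℤ) × (ℤ × ℤ)}
    (hw : Wt hK h (val m c w.1) (val m c w.2)) : chi h = (val m c (chiW w) : K) := by
  rw [chi_wt hK hw, val_phi hK, val_phi hK]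
  refine congrArg Units.val ?_
  simp only [pow_succ, pow_zero, one_mul, val_add]
  simp only [chiW]
  congr 1
  refine Prod.ext ?_ ?_ <;> dsimp only <;> ring

/-- The weights after conjugation by a word. -/
def wordW (L : List (Fin 2)) (w : (ℤ × ℤ) × (ℤ × ℤ)) : (ℤ × ℤ) × (ℤ × ℤ) := L.foldr stepW w

theorem wt_word {s : ↥(chevF4.group K)} {c : Kˣ} {w : (ℤ × ℤ) × (ℤ × ℤ)}
    (hs : Wt hK s (val m c w.1) (val m c w.2)) : ∀ L : List (Fin 2),
      Wt hK (nw hK L * s * (nw hK L)⁻¹) (val m c (wordW L w).1) (val m c (wordW L w).2)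
  | [] => by simpa [nw, wordW] using hs
  | j :: L => by
    have := (wt_word hs L).step j
    rw [nw_cons, show (TD hK).nS j * nw hK L * s * ((TD hK).nS j * nw hK L)⁻¹ =
      (TD hK).nS j * (nw hK L * s * (nw hK L)⁻¹) * ((TD hK).nS j)⁻¹ by group]
    exact this

/-- The exponent of the coefficient change of a word. -/
def diffW (L : List (Fin 2)) : ℤ × ℤ :=
  ((chiW ((1, 0), (0, 0))).1 - (chiW (wordW L ((1, 0), (0, 0)))).1,
    (chiW ((1, 0), (0, 0))).2 - (chiW (wordW L ((1, 0), (0, 0)))).2)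

theorem diff_facts : ∀ L ∈ repWords, normExp (diffW L) ∈ [2 ^ 0, 2 ^ 1, 2 ^ 2, 2 ^ 3] := by decide +kernel

include hK in
theorem val_surjective {x : ℤ × ℤ} {k : ℕ} (hx : normExp x = 2 ^ k) :
    Function.Surjective fun c : Kˣ => val m c x := by
  refine Finite.injective_iff_surjective.1 fun c d h => ?_
  by_contra hne
  refine val_ne_one hK (c := c * d⁻¹) (fun e => hne (mul_inv_eq_one.1 e)) hx ?_
  have h' : val m c x = val m d x := h
  simp only [val] at h'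
  simp only [val, map_mul, map_inv, mul_zpow, inv_zpow]
  rw [mul_mul_mul_comm, h', ← mul_inv, mul_inv_cancel]

/-- The opposite factorisation of a representative, with every coefficient. -/
theorem opp {L : List (Fin 2)} (hL : L ∈ repWords) (C : Kˣ) :
    ∃ h ∈ (TD hK).H0, ∃ A ∈ Fix (K := K) ⊓ (TD hK).G1, ∃ Y ∈ UN hK ⊓ (TD hK).G1,
      ∃ B ∈ Fix (K := K) ⊓ (TD hK).G1, h * nw hK L = A * Y * B ∧ chi h = (C : K) := by
  obtain ⟨⟨c, j⟩, hp, hLs⟩ := repWords_split L hL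
  obtain ⟨-, hpos, hrad⟩ := split_facts _ hp
  obtain ⟨x, hx, hne⟩ := f4_hne hK j
  obtain ⟨u, hu, h0, hh0, u', hu', e⟩ := rank_one_class hK j hx hne
  set N := nw hK c with hN
  have hNm := nw_mem hK c
  have hG : ∀ {g}, g ∈ (TD hK).X1 j → g ∈ (TD hK).G1 := fun {g} hg =>
    (TD hK).U1_le_G1 ⟨(TD hK).X_le_U j hg.1, hg.2⟩
  have hNG := (TD hK).N0_le_G1 hNm
  have hn' : nw hK L = N * (TD hK).nS j * N⁻¹ := by
    rw [hLs, nw_append, nw_cons, nw_reverse, hN]; group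
  -- the factorisation before scaling
  set A0 := N * u⁻¹ * N⁻¹ with hA0
  set B0 := N * u'⁻¹ * N⁻¹ with hB0
  set Y0 := N * ((TD hK).nS j * x * ((TD hK).nS j)⁻¹) * N⁻¹ with hY0
  set h1 := N * h0 * N⁻¹ with hh1
  have e1 : h1 * nw hK L = A0 * Y0 * B0 := by
    rw [hn', hA0, hY0, hB0, hh1, e]; group
  have hA : A0 ∈ Fix (K := K) ⊓ (TD hK).G1 :=
    Subgroup.mem_inf.2 ⟨conj_cls_pos hK hpos (inv_mem hu), mul_mem (mul_mem hNG (inv_mem (hG hu))) (inv_mem hNG)⟩
  have hB : B0 ∈ Fix (K := K) ⊓ (TD hK).G1 :=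
    Subgroup.mem_inf.2 ⟨conj_cls_pos hK hpos (inv_mem hu'), mul_mem (mul_mem hNG (inv_mem (hG hu'))) (inv_mem hNG)⟩
  have hY : Y0 ∈ UN hK ⊓ (TD hK).G1 := by
    refine Subgroup.mem_inf.2 ⟨(mem_UN_iff hK).2 ?_, mul_mem (mul_mem hNG (mul_mem (mul_mem
      ((TD hK).N0_le_G1 ((TD hK).nS_mem_N0 j)) (hG hx)) (inv_mem ((TD hK).N0_le_G1 ((TD hK).nS_mem_N0 j)))))
      (inv_mem hNG)⟩
    have := conj_cls_rad hK hrad hx
    rw [nw_append, nw_append, nw_reverse, nw_single] at this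
    convert this using 1
    rw [hY0, hN]
    group
  have hh1m : h1 ∈ (TD hK).H0 := (TD hK).H0_normal hNm hh0
  have hc0 : chi h1 ≠ 0 := chi_ne_zero (H0_mem_Pst hK hh1m)
  -- the scaling
  obtain ⟨k, -, hk⟩ : ∃ k, k ≤ 3 ∧ normExp (diffW L) = 2 ^ k := by
    have := diff_facts L hL
    simp only [List.mem_cons, List.not_mem_nil, or_false] at this
    rcases this with h | h | h | h
    exacts [⟨0, by omega, h⟩, ⟨1, by omega, h⟩, ⟨2, by omega, h⟩, ⟨3, by omega, h⟩]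
  obtain ⟨b, hb⟩ := val_surjective hK hk (C * (Units.mk0 _ hc0)⁻¹)
  obtain ⟨s, hs⟩ := exists_wt hK (val m b (1, 0)) (val m b (0, 0))
  have hw := wt_word hK (w := ((1, 0), (0, 0))) hs L
  set n' := nw hK L
  have hsH := hs.1
  refine ⟨s * h1 * (n' * s * n'⁻¹)⁻¹, mul_mem (mul_mem hsH hh1m) (inv_mem hw.1), s * A0 * s⁻¹, Subgroup.mem_inf.2 ⟨?_, ?_⟩,
    s * Y0 * s⁻¹, Subgroup.mem_inf.2 ⟨UN_conj_H0 hK hsH hY.1, ?_⟩, s * B0 * s⁻¹, Subgroup.mem_inf.2 ⟨?_, ?_⟩, ?_, ?_⟩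
  rotate_right
  · rw [chi_mul _ (inv_mem (H0_mem_Pst hK hw.1)), chi_mul _ (H0_mem_Pst hK hh1m),
      chi_inv (H0_mem_Pst hK hw.1), chi_val hK (w := ((1, 0), (0, 0))) hs, chi_val hK hw]
    have hd : val m b (chiW ((1, 0), (0, 0))) = val m b (diffW L) * val m b (chiW (wordW L ((1, 0), (0, 0)))) := by
      rw [val_add]
      refine congrArg (val m b) (Prod.ext ?_ ?_) <;> simp [diffW]
    have hb' : val m b (diffW L) = C * (Units.mk0 _ hc0)⁻¹ := hb
    rw [hd, hb', Units.val_mul, Units.val_mul, Units.val_inv_eq_inv_val, Units.val_mk0]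
    field_simp
  rotate_right
  · calc s * h1 * (n' * s * n'⁻¹)⁻¹ * n' = s * (h1 * n') * s⁻¹ := by group
      _ = _ := by rw [e1]; group
  · have hd : s ∈ Pst (K := K) := H0_mem_Pst hK hsH
    show (((s * A0 * s⁻¹ : ↥(chevF4.group K)) : GL chevF4.Idx K) : Matrix _ _ K) *ᵥ eTop = eTop
    rw [Subgroup.coe_mul, Subgroup.coe_mul, Units.val_mul, Units.val_mul, ← Matrix.mulVec_mulVec,
      mulVec_of_mem (inv_mem hd), Matrix.mulVec_smul, ← Matrix.mulVec_mulVec,
      show ((A0 : GL chevF4.Idx K) : Matrix _ _ K) *ᵥ eTop = eTop from hA.1, mulVec_of_mem hd, smul_smul,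
      mul_comm, chi_mul_inv hd, one_smul]
  · exact mul_mem (mul_mem ((TD hK).N0_le_G1 ((TD hK).H0_le_N0 hsH)) hA.2)
      (inv_mem ((TD hK).N0_le_G1 ((TD hK).H0_le_N0 hsH)))
  · exact mul_mem (mul_mem ((TD hK).N0_le_G1 ((TD hK).H0_le_N0 hsH)) hY.2)
      (inv_mem ((TD hK).N0_le_G1 ((TD hK).H0_le_N0 hsH)))
  · have hd : s ∈ Pst (K := K) := H0_mem_Pst hK hsH
    show (((s * B0 * s⁻¹ : ↥(chevF4.group K)) : GL chevF4.Idx K) : Matrix _ _ K) *ᵥ eTop = eTop
    rw [Subgroup.coe_mul, Subgroup.coe_mul, Units.val_mul, Units.val_mul, ← Matrix.mulVec_mulVec,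
      mulVec_of_mem (inv_mem hd), Matrix.mulVec_smul, ← Matrix.mulVec_mulVec,
      show ((B0 : GL chevF4.Idx K) : Matrix _ _ K) *ᵥ eTop = eTop from hB.1, mulVec_of_mem hd, smul_smul,
      mul_comm, chi_mul_inv hd, one_smul]
  · exact mul_mem (mul_mem ((TD hK).N0_le_G1 ((TD hK).H0_le_N0 hsH)) hB.2)
      (inv_mem ((TD hK).N0_le_G1 ((TD hK).H0_le_N0 hsH)))

omit [Fintype K] in
theorem pairV_not_mem : pairV K m (1 : K) ∉ Pst (K := K) := by
  rintro ⟨c, hc⟩
  have h23 : goodF4.tab.ent 23 47 = [(46, 1)] ∨ goodF4.tab.ent 23 47 = [(46, -1)] := by decide +kernel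
  have h14 : goodF4.tab.ent 14 46 = [] ∧ goodF4.tab.ent 14 47 = [] := by decide +kernel
  rw [pairV, map_one] at hc
  change ((goodF4.xg 14 (1 : K) * goodF4.xg 23 1 : GL chevF4.Idx K) : Matrix chevF4.Idx chevF4.Idx K) *ᵥ eTop = _ at hc
  rw [Units.val_mul, ← Matrix.mulVec_mulVec, Good.coe_xg, Good.coe_xg, eTop,
    goodF4.x_mulVec_e (show 23 < chevF4.nroots by decide) 1 (show 47 < chevF4.nroots by decide) (by decide)
      (by decide +kernel)] at hc
  rcases h23 with h | h <;> rw [h] at hc <;>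
    simp only [List.zipIdx_cons, List.zipIdx_nil, List.map_cons, List.map_nil, List.sum_cons, List.sum_nil,
      add_zero, one_pow, mul_one, Matrix.mulVec_add, Matrix.mulVec_smul] at hc <;>
    rw [goodF4.x_mulVec_e (show 14 < chevF4.nroots by decide) 1 (show 47 < chevF4.nroots by decide) (by decide)
        (by decide +kernel), goodF4.x_mulVec_e (show 14 < chevF4.nroots by decide) 1
        (show 46 < chevF4.nroots by decide) (by decide) (by decide +kernel), h14.1, h14.2] at hc <;>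
    have h46 := congrFun hc (Sum.inr ⟨46, by decide⟩) <;>
    simp [bvec, code] at h46

/-- The coset decomposition: every nontrivial element has a conjugate in a nontrivial coset. -/
theorem exists_coset (hm : 1 ≤ m) {g : ↥(chevF4.group K)} (hg : g ∈ (TD hK).G1) (hne : g ≠ 1) :
    ∃ L ∈ repWords, ∃ p ∈ Pst (K := K) ⊓ (TD hK).G1, ∃ k ∈ (TD hK).G1, k * g * k⁻¹ = nw hK L * p := by
  have hG1 : (TD hK).G1 = f4W K m := (f4Setup K hK).G1_eq
  obtain ⟨k, hk, hout⟩ : ∃ k ∈ (TD hK).G1, k * g * k⁻¹ ∉ Pst (K := K) := by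
    by_contra! hall
    have hs := (f4_simple (K := K) hm hK).1
    let ι : ↥(twistedF4 K (2 ^ m)) →* ↥(chevF4.group K) :=
      { toFun := fun x => ⟨x.1, twistedF4_le x.2⟩
        map_one' := rfl
        map_mul' := fun _ _ => rfl }
    have hι : ∀ x, ι x ∈ (TD hK).G1 := fun x => by rw [hG1]; exact Subgroup.mem_subgroupOf.2 x.2
    let g' : ↥(twistedF4 K (2 ^ m)) := ⟨g.1, by rw [hG1] at hg; exact Subgroup.mem_subgroupOf.1 hg⟩
    let N := Subgroup.normalClosure ({g'} : Set ↥(twistedF4 K (2 ^ m)))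
    have hN : N ≤ (Pst (K := K)).comap ι := by
      refine (Subgroup.closure_le _).2 fun y hy => ?_
      obtain ⟨y', hy', hc⟩ := Group.mem_conjugatesOfSet_iff.1 hy
      obtain ⟨k, rfl⟩ := isConj_iff.1 hc
      rw [Set.mem_singleton_iff] at hy'
      subst hy'
      show ι (k * g' * k⁻¹) ∈ Pst (K := K)
      rw [map_mul, map_mul, map_inv]
      exact hall (ι k) (hι k)
    rcases (Subgroup.normalClosure_normal : N.Normal).eq_bot_or_eq_top with h | h
    · have hgN : g' ∈ Subgroup.normalClosure ({g'} : Set ↥(twistedF4 K (2 ^ m))) :=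
        Subgroup.subset_normalClosure (Set.mem_singleton g')
      rw [h, Subgroup.mem_bot] at hgN
      exact hne (congrArg ι hgN)
    · refine pairV_not_mem (K := K) (m := m) ?_
      let v : ↥(twistedF4 K (2 ^ m)) :=
        ⟨(pairV K m 1).1, Subgroup.mem_subgroupOf.1 (pairV_mem (K := K) (m := m) 1)⟩
      exact hN (show v ∈ Subgroup.normalClosure ({g'} : Set ↥(twistedF4 K (2 ^ m))) by rw [h]; trivial)
  have hkg : k * g * k⁻¹ ∈ (TD hK).G1 := mul_mem (mul_mem hk hg) (inv_mem hk)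
  obtain ⟨μ, hμ, u, hu, h, hh, u', hu', e⟩ := (TD hK).exists_cell hkg
  have hU : ∀ {y}, y ∈ (TD hK).U1 → y ∈ Pst (K := K) ⊓ (TD hK).G1 := fun {y} hy =>
    ⟨fix_le (posUnipotent_le_Fix (Subgroup.mem_subgroupOf.2 ((f4Setup K hK).mem_U1.1 hy).1)),
      (TD hK).U1_le_G1 hy⟩
  obtain ⟨h', hh', hhL⟩ := nS_one_mem_H0_mul_L1 hK
  have hn1P : (TD hK).nS 1 ∈ Pst (K := K) := by
    have := mul_mem (inv_mem (H0_mem_Pst hK hh')) (fix_le (L1_le_Fix hK hhL))
    rwa [inv_mul_cancel_left] at this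
  have hw : μ * h ∈ (TD hK).N0 := mul_mem hμ ((TD hK).H0_le_N0 hh)
  obtain ⟨d, hd⟩ := (f4Table K hK).exists_perm hw
  have hdiag : ∀ y ∈ (TD hK).N0, goodF4.perm (y : GL chevF4.Idx K) = 1 → y ∈ Pst (K := K) := fun y hy h1 =>
    H0_mem_Pst hK ((TD hK).N0_inf_H' hy ((goodF4.perm_eq_one_iff (mon_of_N0 hK hy)).1 h1))
  have lift : ∀ A ∈ [1, f4Gen 1], ∃ a ∈ (TD hK).N0, a ∈ Pst (K := K) ∧
      goodF4.perm (a : GL chevF4.Idx K) = (f4Table K hK).perm A := by
    intro A hA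
    simp only [List.mem_cons, List.not_mem_nil, or_false] at hA
    rcases hA with rfl | rfl
    · exact ⟨nw hK [], nw_mem hK [], by rw [show nw hK [] = 1 from rfl]; exact one_mem _, perm_nw hK []⟩
    · refine ⟨nw hK [1], nw_mem hK [1], by rw [nw_single]; exact hn1P, ?_⟩
      rw [perm_nw, show idxW [1] = f4Gen 1 by simp [idxW]]
  by_cases h47 : appR f4Wn (f4Word d) 47 = 47
  · exfalso
    refine hout ?_
    rw [e]
    refine mul_mem (mul_mem (hU hu).1 ?_) (hU hu').1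
    obtain ⟨a, haN, haP, ha⟩ := lift d (by rcases (weyl_cases d).1 h47 with rfl | rfl <;> simp)
    have := hdiag (a⁻¹ * (μ * h)) (mul_mem (inv_mem haN) hw) (by
      rw [Subgroup.coe_mul, Subgroup.coe_inv, goodF4.perm_mul (inv_mem (mon_of_N0 hK haN)) (mon_of_N0 hK hw),
        goodF4.perm_inv (mon_of_N0 hK haN), hd, ha, inv_mul_cancel])
    simpa using mul_mem haP this
  · obtain ⟨L, hL, A, hA, B, hB, rfl⟩ := (weyl_cases d).2 h47
    obtain ⟨a, haN, haP, ha⟩ := lift A hA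
    obtain ⟨b, hbN, hbP, hb⟩ := lift B hB
    have hanb : a * nw hK L * b ∈ (TD hK).N0 := mul_mem (mul_mem haN (nw_mem hK L)) hbN
    have hdP : (a * nw hK L * b)⁻¹ * (μ * h) ∈ Pst (K := K) := by
      refine hdiag _ (mul_mem (inv_mem hanb) hw) ?_
      rw [Subgroup.coe_mul, Subgroup.coe_inv, goodF4.perm_mul (inv_mem (mon_of_N0 hK hanb)) (mon_of_N0 hK hw),
        goodF4.perm_inv (mon_of_N0 hK hanb), hd, Subgroup.coe_mul, Subgroup.coe_mul,
        goodF4.perm_mul (mul_mem (mon_of_N0 hK haN) (mon_of_N0 hK (nw_mem hK L))) (mon_of_N0 hK hbN),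
        goodF4.perm_mul (mon_of_N0 hK haN) (mon_of_N0 hK (nw_mem hK L)), ha, hb, perm_nw,
        (f4Table K hK).perm_mul, (f4Table K hK).perm_mul, inv_mul_cancel]
    set dd := (a * nw hK L * b)⁻¹ * (μ * h) with hdd
    have hddG : dd ∈ (TD hK).G1 := (TD hK).N0_le_G1 (mul_mem (inv_mem hanb) hw)
    refine ⟨L, hL, b * dd * u' * (u * a),
      ⟨mul_mem (mul_mem (mul_mem hbP hdP) (hU hu').1) (mul_mem (hU hu).1 haP),
        mul_mem (mul_mem (mul_mem ((TD hK).N0_le_G1 hbN) hddG) (hU hu').2)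
          (mul_mem (hU hu).2 ((TD hK).N0_le_G1 haN))⟩,
      (u * a)⁻¹ * k, mul_mem (inv_mem (mul_mem (hU hu).2 ((TD hK).N0_le_G1 haN))) hk, ?_⟩
    rw [show (u * a)⁻¹ * k * g * ((u * a)⁻¹ * k)⁻¹ = (u * a)⁻¹ * (k * g * k⁻¹) * (u * a) by group, e, hdd]
    group

/-- The Gauss form with a prescribed coefficient. -/
theorem exists_gauss (hm : 1 ≤ m) {g : ↥(chevF4.group K)} (hg : g ∈ (TD hK).G1) (hne : g ≠ 1) (c : Kˣ) :
    ∃ Y ∈ UN hK ⊓ (TD hK).G1, ∃ p ∈ Pst (K := K) ⊓ (TD hK).G1, ∃ k ∈ (TD hK).G1,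
      k * g * k⁻¹ = Y * p ∧ chi p = (c : K) := by
  obtain ⟨L, hL, p, hp, k, hk, e⟩ := exists_coset hK hm hg hne
  obtain ⟨h, hh, A, hA, Y, hY, B, hB, eo, hchi⟩ := opp hK hL (Units.mk0 _ (chi_ne_zero hp.1) * c⁻¹)
  have hhP : h ∈ Pst (K := K) := H0_mem_Pst hK hh
  have hhG : h ∈ (TD hK).G1 := (TD hK).N0_le_G1 ((TD hK).H0_le_N0 hh)
  refine ⟨Y, hY, B * p * h⁻¹ * A, Subgroup.mem_inf.2 ⟨mul_mem (mul_mem (mul_mem (fix_le hB.1) hp.1) (inv_mem hhP)) (fix_le hA.1),
    mul_mem (mul_mem (mul_mem hB.2 hp.2) (inv_mem hhG)) hA.2⟩, A⁻¹ * h * k,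
    mul_mem (mul_mem (inv_mem hA.2) hhG) hk, ?_, ?_⟩
  · calc A⁻¹ * h * k * g * (A⁻¹ * h * k)⁻¹ = A⁻¹ * h * (k * g * k⁻¹) * h⁻¹ * A := by group
      _ = A⁻¹ * (h * nw hK L) * p * h⁻¹ * A := by rw [e]; group
      _ = _ := by rw [eo]; group
  · rw [chi_mul _ (fix_le hA.1), chi_mul _ (inv_mem hhP), chi_mul _ hp.1, chi_fix hB.1, chi_fix hA.1,
      chi_inv hhP, hchi, Units.val_mul, Units.val_mk0, Units.val_inv_eq_inv_val]
    field_simp [chi_ne_zero hp.1]

end Cfsg.Agent.H75.ReeCover
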