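import Cfsg.Agent.H75.ReeCover.Levi2

/-!
# Products of two conjugates of one element of odd order in the twisted groups of type F₄
-/

set_option autoImplicit false
set_option maxRecDepth 100000

open Cfsg.Lie Cfsg.Agent.H46 Cfsg.Agent.H65.Twist Cfsg.Agent.H70.F4Out Cfsg.Agent.H70.F4Mult
open scoped Matrix MatrixGroups

namespace Cfsg.Agent.H75.ReeCover

/-- Absorption of an element of a finite subgroup acted upon without fixed points. -/
theorem absorb {G : Type*} [Group G] {W : Subgroup G} [Finite W] {x : G}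
    (hx : ∀ v ∈ W, x * v * x⁻¹ ∈ W) (hreg : ∀ v ∈ W, x * v * x⁻¹ = v → v = 1) {w : G} (hw : w ∈ W) :
    (∃ v ∈ W, w * x = v * x * v⁻¹) ∧ ∃ v ∈ W, x * w = v * x * v⁻¹ := by
  have hsur : ∀ w ∈ W, ∃ v ∈ W, w * x = v * x * v⁻¹ := by
    let φ : W → W := fun v => ⟨v * (x * (v : G)⁻¹ * x⁻¹), mul_mem v.2 (hx _ (inv_mem v.2))⟩
    have hinj : Function.Injective φ := fun a b h => by
      have h' : (a : G) * (x * (a : G)⁻¹ * x⁻¹) = b * (x * (b : G)⁻¹ * x⁻¹) := congrArg Subtype.val h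
      have h1 : x * ((b : G)⁻¹ * a) * x⁻¹ = (b : G)⁻¹ * a := by
        calc x * ((b : G)⁻¹ * a) * x⁻¹ = (x * (b : G)⁻¹ * x⁻¹) * (x * (a : G)⁻¹ * x⁻¹)⁻¹ := by group
          _ = ((b : G)⁻¹ * (b * (x * (b : G)⁻¹ * x⁻¹))) * (x * (a : G)⁻¹ * x⁻¹)⁻¹ := by group
          _ = _ := by rw [← h']; group
      exact Subtype.ext (inv_mul_eq_one.1 (hreg _ (mul_mem (inv_mem b.2) a.2) h1)).symm
    intro w hw
    obtain ⟨v, hv⟩ := Finite.injective_iff_surjective.1 hinj ⟨w, hw⟩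
    refine ⟨v, v.2, ?_⟩
    have hv' : (v : G) * (x * (v : G)⁻¹ * x⁻¹) = w := congrArg Subtype.val hv
    rw [← hv']
    group
  refine ⟨hsur w hw, ?_⟩
  obtain ⟨v, hv, e⟩ := hsur (x * w * x⁻¹) (hx w hw)
  exact ⟨v, hv, by rw [← e]; group⟩

variable {K : Type*} [Field K] [Fintype K] [CharP K 2] {m : ℕ} (hK : Fintype.card K = 2 ^ (2 * m + 1))

theorem wt_pow {h : ↥(chevF4.group K)} {α β : Kˣ} (w : Wt hK h α β) :
    ∀ n : ℕ, Wt hK (h ^ n) (α ^ n) (β ^ n)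
  | 0 => by simp only [pow_zero]; exact ⟨one_mem _, fun t => by simp, fun t u => by simp⟩
  | n + 1 => by simpa [pow_succ] using (wt_pow w n).mul w

/-- Diagonal elements trivial on the class centralise the Levi part. -/
theorem commute_L1 {z : ↥(chevF4.group K)} {α : Kˣ} (w : Wt hK z α 1) {l : ↥(chevF4.group K)}
    (hl : l ∈ L1 hK) : Commute z l := by
  have hn : Commute z ((TD hK).nS 1) := by
    have h := w.conj.2
    simp only [map_one, one_pow, mul_one, inv_one] at h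
    exact (mul_inv_eq_iff_eq_mul.1 (h.ext w)).symm
  have hX : ∀ x ∈ (TD hK).X1 1, Commute z x := fun x hx => by
    obtain ⟨t, u, rfl⟩ := mem_X1 hK hx
    have h := w.2.2 t u
    simp only [Units.val_one, map_one, one_mul, mul_inv_eq_iff_eq_mul] at h
    exact h
  have hle : L1 hK ≤ Subgroup.centralizer {z} := by
    refine (Subgroup.closure_le _).2 ?_
    rintro g (hg | ⟨x, hx, rfl⟩)
    · exact Subgroup.mem_centralizer_singleton_iff.2 (hX g hg).eq.symm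
    · exact Subgroup.mem_centralizer_singleton_iff.2
        (((hn.mul_right (hX x hx)).mul_right hn.inv_right)).eq.symm
  exact (Subgroup.mem_centralizer_singleton_iff.1 (hle hl)).symm

/-- The square of one class covers the group, given the covering of the Levi part. -/
theorem cover_of_levi (hm : 1 ≤ m)
    (hA1 : ∃ x0 ∈ L1 hK, x0 ^ 5 = 1 ∧ ∀ l ∈ L1 hK, ∃ u ∈ L1 hK, ∃ v ∈ L1 hK,
      l = (u * x0 * u⁻¹) * (v * x0 * v⁻¹))
    (hA2 : ∀ h ∈ (TD hK).H0, ∃ t ∈ L1 hK, ∃ a, Wt hK (h * t) a 1) :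
    ∃ x ∈ (TD hK).G1, Odd (orderOf x) ∧ ∀ g ∈ (TD hK).G1, g ≠ 1 →
      ∃ u ∈ (TD hK).G1, ∃ v ∈ (TD hK).G1, g = (u * x * u⁻¹) * (v * x * v⁻¹) := by
  obtain ⟨x0, hx0, h5, hcov⟩ := hA1
  obtain ⟨α, hα⟩ := IsCyclic.exists_generator (α := Kˣ)
  have hcard : Nat.card Kˣ = 2 ^ (2 * m + 1) - 1 := by
    rw [Nat.card_units, Nat.card_eq_fintype_card, hK]
  have h8 : 2 ^ 3 ≤ 2 ^ (2 * m + 1) := Nat.pow_le_pow_right (by norm_num) (by omega)
  have hα5 : α ^ 5 ≠ 1 := by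
    intro h
    have := orderOf_dvd_of_pow_eq_one h
    rw [orderOf_eq_card_of_forall_mem_zpowers hα, hcard] at this
    have := Nat.le_of_dvd (by norm_num) this
    omega
  obtain ⟨z0, hz0⟩ := exists_wt hK α 1
  set x := z0 * x0 with hx
  have hz0G : z0 ∈ (TD hK).G1 := (TD hK).N0_le_G1 ((TD hK).H0_le_N0 hz0.1)
  have hcomm : Commute z0 x0 := commute_L1 hK hz0 hx0
  have hx5 : x ^ 5 = z0 ^ 5 := by rw [hx, hcomm.mul_pow, h5, mul_one]
  have hodd : Odd (orderOf x) := by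
    have h1 : x ^ (5 * Nat.card Kˣ) = 1 := by
      rw [pow_mul, hx5, ← pow_mul]
      have := wt_pow hK hz0 (5 * Nat.card Kˣ)
      rw [one_pow, mul_comm 5, pow_mul α, pow_card_eq_one', one_pow] at this
      rw [mul_comm 5]
      exact this.eq_one
    refine Odd.of_dvd_nat ?_ (orderOf_dvd_of_pow_eq_one h1)
    rw [hcard]
    exact Odd.mul (by decide) (Nat.Even.sub_odd Nat.one_le_two_pow (Nat.even_pow.2 ⟨even_two, by omega⟩) odd_one)
  refine ⟨x, mul_mem hz0G (L1_le_G1 hK hx0), hodd, fun g hg hne => ?_⟩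
  obtain ⟨Y, hY, p, hp, k, hk, e, hchi⟩ :=
    exists_gauss hK hm hg hne (Units.mk0 _ (chi_ne_zero (H0_mem_Pst hK (mul_mem hz0.1 hz0.1))))
  obtain ⟨l0, hl0, t, ht, w, hw, rfl⟩ := exists_pForm hK hm hp
  obtain ⟨s, hs, a, ha⟩ := hA2 t ht
  -- the diagonal part is the square
  have hzP : t * s ∈ Pst (K := K) := H0_mem_Pst hK ha.1
  have hchiz : chi (t * s) = chi (z0 * z0) := by
    rw [chi_mul _ (fix_le (UP_le_Fix hw.1)), chi_fix (UP_le_Fix hw.1), mul_one, chi_mul _ (H0_mem_Pst hK ht),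
      chi_fix (L1_le_Fix hK hl0), one_mul, Units.val_mk0] at hchi
    rw [chi_mul _ (fix_le (L1_le_Fix hK hs)), chi_fix (L1_le_Fix hK hs), mul_one, hchi]
  have hz2 : t * s = z0 * z0 := by
    have w2 : Wt hK (z0 * z0) (α * α) 1 := by simpa using hz0.mul hz0
    have e1 : Wt hK (t * s) (val m a (1, 0)) (val m a (0, 0)) := by simpa [val] using ha
    have e2 : Wt hK (z0 * z0) (val m (α * α) (1, 0)) (val m (α * α) (0, 0)) := by simpa [val] using w2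
    rw [chi_val hK (w := ((1, 0), (0, 0))) e1, chi_val hK (w := ((1, 0), (0, 0))) e2] at hchiz
    have hv : val m a (2, 1) = val m (α * α) (2, 1) := Units.ext hchiz
    have haa : a = α * α := by
      by_contra hne'
      refine val_ne_one hK (c := a * (α * α)⁻¹) (fun h => hne' (mul_inv_eq_one.1 h)) (x := (2, 1)) (k := 1)
        (by rfl) ?_
      simp only [val] at hv
      simp only [val, map_mul, map_inv, mul_zpow, inv_zpow] at hv ⊢
      rw [mul_mul_mul_comm, hv, ← mul_inv, mul_inv_cancel]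
    exact (haa ▸ ha).ext w2
  have hct : t = z0 * z0 * s⁻¹ := by rw [← hz2]; group
  have hcz : Commute (z0 * z0) s⁻¹ := ((commute_L1 hK hz0 hs).mul_left (commute_L1 hK hz0 hs)).inv_right
  obtain ⟨u, hu, v, hv, huv⟩ := hcov (l0 * s⁻¹) (mul_mem hl0 (inv_mem hs))
  have ep : l0 * t = (u * x * u⁻¹) * (v * x * v⁻¹) := by
    have cu : ∀ {y}, y ∈ L1 hK → z0 * y = y * z0 := fun {y} hy => (commute_L1 hK hz0 hy).eq
    have eu : ∀ {y}, y ∈ L1 hK → y * x * y⁻¹ = z0 * (y * x0 * y⁻¹) := fun {y} hy => by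
      rw [hx, ← mul_assoc, ← cu hy]; group
    rw [hct, hcz.eq, ← mul_assoc, huv, eu hu, eu hv, ← huv]
    have hl : z0 * (u * x0 * u⁻¹) = u * x0 * u⁻¹ * z0 := cu (mul_mem (mul_mem hu hx0) (inv_mem hu))
    calc l0 * s⁻¹ * (z0 * z0) = (u * x0 * u⁻¹) * ((v * x0 * v⁻¹) * z0) * z0 := by rw [huv]; group
      _ = (u * x0 * u⁻¹) * (z0 * (v * x0 * v⁻¹)) * z0 := by
        rw [cu (mul_mem (mul_mem hv hx0) (inv_mem hv))]
      _ = (u * x0 * u⁻¹) * z0 * ((v * x0 * v⁻¹) * z0) := by group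
      _ = _ := by rw [← hl, ← cu (mul_mem (mul_mem hv hx0) (inv_mem hv))]
  -- absorption
  have hy5 : Wt hK (z0 ^ 5) (α ^ 5) 1 := by simpa using wt_pow hK hz0 5
  have hpow : ∀ v, x * v * x⁻¹ = v → z0 ^ 5 * v * (z0 ^ 5)⁻¹ = v := fun v h => by
    rw [← hx5, mul_inv_eq_iff_eq_mul]
    exact (Commute.pow_left (show Commute x v from mul_inv_eq_iff_eq_mul.1 h) 5).eq
  have hxUP : ∀ v ∈ UP K ⊓ (TD hK).G1, x * v * x⁻¹ ∈ UP K ⊓ (TD hK).G1 := fun v hv =>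
    UP_conj hK (mul_mem (H0_le_LP hK hz0.1) (L1_le_LP hK hx0)) hv
  have hxUN : ∀ v ∈ UN hK ⊓ (TD hK).G1, x * v * x⁻¹ ∈ UN hK ⊓ (TD hK).G1 := fun v hv => by
    rw [show x * v * x⁻¹ = z0 * (x0 * v * x0⁻¹) * z0⁻¹ by rw [hx]; group]
    exact UN_conj hK (Or.inr hz0.1) (UN_conj hK (Or.inl hx0) hv)
  have hYu : u⁻¹ * Y * u ∈ UN hK ⊓ (TD hK).G1 := by
    simpa using UN_conj hK (Or.inl (inv_mem hu)) hY
  have hwv : v⁻¹ * w * v ∈ UP K ⊓ (TD hK).G1 := by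
    simpa using UP_conj hK (inv_mem (L1_le_LP hK hv)) hw
  obtain ⟨y1, hy1, ey1⟩ := (absorb hxUN (fun v hv h => regular_UN hK hy5 hα5 hv.1 (hpow v h)) hYu).1
  obtain ⟨y2, hy2, ey2⟩ := (absorb hxUP (fun v hv h => regular_UP hK hy5 hα5 hv.1 (hpow v h)) hwv).2
  refine ⟨k⁻¹ * (u * y1), mul_mem (inv_mem hk) (mul_mem (L1_le_G1 hK hu) hy1.2), k⁻¹ * (v * y2),
    mul_mem (inv_mem hk) (mul_mem (L1_le_G1 hK hv) hy2.2), ?_⟩
  calc g = k⁻¹ * (k * g * k⁻¹) * k := by group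
    _ = k⁻¹ * (u * ((u⁻¹ * Y * u) * x) * u⁻¹ * (v * (x * (v⁻¹ * w * v)) * v⁻¹)) * k := by
      rw [e, ep]; group
    _ = _ := by rw [ey1, ey2]; group

end Cfsg.Agent.H75.ReeCover
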