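import Cfsg.Agent.H70.F4Mult.Weights
import Cfsg.Agent.H46.Parabolic
import Cfsg.Agent.H23.RegularTorus

/-!
# The parabolic subgroup of the highest root line in the twisted groups of type F₄

The Levi part belongs to the class of type B₂; its derived part is generated by that class and its
opposite.
-/

set_option autoImplicit false
set_option maxRecDepth 100000

open Cfsg.Lie Cfsg.Agent.H46 Cfsg.Agent.H65.Twist Cfsg.Agent.H70.F4Out Cfsg.Agent.H70.F4Mult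
open scoped Matrix MatrixGroups

namespace Cfsg.Agent.H75.ReeCover

variable {K : Type*} [Field K]

/-- The vector of the highest root. -/
def eTop : chevF4.Idx → K := bvec chevF4 K (chevF4.rank + 47)

/-- The index of the highest root vector. -/
def iTop : chevF4.Idx := Sum.inr ⟨47, by decide⟩

theorem eTop_apply : (eTop : chevF4.Idx → K) iTop = 1 := by
  simp [eTop, bvec, code, iTop]

/-- The coefficient at the highest root vector. -/
def chi (g : ↥(chevF4.group K)) : K :=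
  (((g : GL chevF4.Idx K) : Matrix chevF4.Idx chevF4.Idx K) *ᵥ eTop) iTop

/-- The stabiliser of the highest root line. -/
def Pst : Subgroup ↥(chevF4.group K) where
  carrier := {g | ∃ c : K, ((g : GL chevF4.Idx K) : Matrix chevF4.Idx chevF4.Idx K) *ᵥ eTop = c • eTop}
  one_mem' := ⟨1, by simp⟩
  mul_mem' := by
    rintro a b ⟨c, hc⟩ ⟨d, hd⟩
    refine ⟨d * c, ?_⟩
    rw [Subgroup.coe_mul, Units.val_mul, ← Matrix.mulVec_mulVec, hd, Matrix.mulVec_smul, hc, smul_smul]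
  inv_mem' := by
    rintro a ⟨c, hc⟩
    refine ⟨c⁻¹, ?_⟩
    have h1 : (((a : GL chevF4.Idx K)⁻¹ : GL chevF4.Idx K) : Matrix chevF4.Idx chevF4.Idx K) *ᵥ (c • eTop)
        = eTop := by
      rw [← hc, Matrix.mulVec_mulVec, ← Units.val_mul, inv_mul_cancel, Units.val_one, Matrix.one_mulVec]
    rw [Matrix.mulVec_smul] at h1
    have hc0 : c ≠ 0 := by
      rintro rfl
      rw [zero_smul] at h1
      exact zero_ne_one ((congrFun h1 iTop).trans eTop_apply)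
    rw [Subgroup.coe_inv]
    conv_rhs => rw [← h1]
    rw [smul_smul, inv_mul_cancel₀ hc0, one_smul]

theorem mulVec_of_mem {g : ↥(chevF4.group K)} (h : g ∈ Pst (K := K)) :
    ((g : GL chevF4.Idx K) : Matrix chevF4.Idx chevF4.Idx K) *ᵥ eTop = chi g • eTop := by
  obtain ⟨c, hc⟩ := h
  rw [hc, chi, hc, Pi.smul_apply, eTop_apply, smul_eq_mul, mul_one]

theorem chi_one : chi (1 : ↥(chevF4.group K)) = 1 := by simp [chi, eTop_apply]

theorem chi_mul (g : ↥(chevF4.group K)) {h : ↥(chevF4.group K)} (hh : h ∈ Pst (K := K)) :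
    chi (g * h) = chi g * chi h := by
  rw [chi, Subgroup.coe_mul, Units.val_mul, ← Matrix.mulVec_mulVec, mulVec_of_mem hh, Matrix.mulVec_smul,
    Pi.smul_apply, smul_eq_mul, mul_comm]
  rfl

theorem chi_mul_inv {g : ↥(chevF4.group K)} (hg : g ∈ Pst (K := K)) : chi g * chi g⁻¹ = 1 := by
  rw [← chi_mul g (inv_mem hg), mul_inv_cancel, chi_one]

theorem chi_inv {g : ↥(chevF4.group K)} (hg : g ∈ Pst (K := K)) : chi g⁻¹ = (chi g)⁻¹ :=
  eq_inv_of_mul_eq_one_right (chi_mul_inv hg)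

theorem chi_ne_zero {g : ↥(chevF4.group K)} (hg : g ∈ Pst (K := K)) : chi g ≠ 0 := fun h => by
  have := chi_mul_inv hg
  rw [h, zero_mul] at this
  exact zero_ne_one this

/-- The pointwise stabiliser of the highest root vector. -/
def Fix : Subgroup ↥(chevF4.group K) where
  carrier := {g | ((g : GL chevF4.Idx K) : Matrix chevF4.Idx chevF4.Idx K) *ᵥ eTop = eTop}
  one_mem' := by simp
  mul_mem' := by
    intro a b ha hb
    simp only [Set.mem_ofPred_eq] at *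
    rw [Subgroup.coe_mul, Units.val_mul, ← Matrix.mulVec_mulVec, hb, ha]
  inv_mem' := by
    intro a ha
    simp only [Set.mem_ofPred_eq] at *
    rw [Subgroup.coe_inv]
    conv_lhs => rw [← ha]
    rw [Matrix.mulVec_mulVec, ← Units.val_mul, inv_mul_cancel, Units.val_one, Matrix.one_mulVec]

theorem fix_le : Fix (K := K) ≤ Pst := fun g hg => ⟨1, by rw [one_smul]; exact hg⟩

theorem chi_fix {g : ↥(chevF4.group K)} (hg : g ∈ Fix (K := K)) : chi g = 1 := by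
  rw [chi, show ((g : GL chevF4.Idx K) : Matrix chevF4.Idx chevF4.Idx K) *ᵥ eTop = eTop from hg, eTop_apply]

theorem ent_top : ∀ r : Fin 48, (24 ≤ r.val ∨ r.val ∈ [17, 19, 20, 22]) →
    r.val = 47 ∨ (47 ≠ r.val ∧ 47 ≠ chevF4.neg r.val ∧ goodF4.tab.ent r.val 47 = []) := by decide +kernel

theorem xE_mem_Fix {r : ℕ} (hr : r < 48) (h : 24 ≤ r ∨ r ∈ [17, 19, 20, 22]) (t : K) :
    xE goodF4 r t ∈ Fix (K := K) := by
  change ((goodF4.xg r t : GL chevF4.Idx K) : Matrix chevF4.Idx chevF4.Idx K) *ᵥ eTop = eTop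
  rw [Good.coe_xg]
  rcases ent_top ⟨r, hr⟩ h with e | ⟨h1, h2, h3⟩
  · obtain rfl : r = 47 := e
    exact goodF4.x_mulVec_self (show 47 < chevF4.nroots by decide) t
  · rw [eTop, goodF4.x_mulVec_e (show r < chevF4.nroots from hr) t (show 47 < chevF4.nroots by decide) h1 h2, h3]
    simp

theorem posUnipotent_le_Fix : (chevF4.posUnipotent K).subgroupOf (chevF4.group K) ≤ Fix := by
  intro g hg
  rw [Subgroup.mem_subgroupOf, goodF4.posUnipotent_eq] at hg
  have key : goodF4.posSub (F := K) Set.univ ≤ Fix.map (chevF4.group K).subtype := by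
    refine (Subgroup.closure_le _).2 ?_
    rintro x ⟨r, t, ⟨hr, -⟩, rfl⟩
    exact ⟨xE goodF4 r t, xE_mem_Fix hr.1 (Or.inl (goodF4.isPosRoot_iff.1 hr).1) t, rfl⟩
  obtain ⟨y, hy, e⟩ := key hg
  rwa [show g = y from Subtype.ext e.symm]

theorem torus_mulVec (z : Fin chevF4.rank → Kˣ) :
    (goodF4.torus z : Matrix chevF4.Idx chevF4.Idx K) *ᵥ eTop = (goodF4.torusVal z 47 : K) • eTop := by
  rw [goodF4.coe_torus, eTop, rdiag_mulVec_e _ (show 47 < chevF4.nroots by decide)]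

theorem torusE_mem_Pst (z : Fin chevF4.rank → Kˣ) : torusE goodF4 z ∈ Pst (K := K) := ⟨_, torus_mulVec z⟩

theorem chi_torusE (z : Fin chevF4.rank → Kˣ) : chi (torusE goodF4 z) = (goodF4.torusVal z 47 : K) := by
  show ((goodF4.torus z : Matrix chevF4.Idx chevF4.Idx K) *ᵥ eTop) iTop = _
  rw [torus_mulVec, Pi.smul_apply, eTop_apply, smul_eq_mul, mul_one]

variable (K) in
/-- The class of type B₂ as a set of fundamental indices. -/
abbrev J1 : Set ℕ := {i | i ∈ f4Jl 1}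

variable (K) in
/-- The unipotent radical of the parabolic subgroup. -/
def UP : Subgroup ↥(chevF4.group K) := (chevF4.unipotentRadical K J1).subgroupOf (chevF4.group K)

variable [Fintype K] [CharP K 2] {m : ℕ} (hK : Fintype.card K = 2 ^ (2 * m + 1))

/-- The derived part of the Levi subgroup. -/
def L1 : Subgroup ↥(chevF4.group K) :=
  Subgroup.closure (((TD hK).X1 1 : Set ↥(chevF4.group K)) ∪
    {g | ∃ x ∈ (TD hK).X1 1, g = (TD hK).nS 1 * x * ((TD hK).nS 1)⁻¹})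

theorem X1_le_L1 : (TD hK).X1 1 ≤ L1 hK := fun _ hx => Subgroup.subset_closure (Or.inl hx)

theorem conj_mem_L1 {x : ↥(chevF4.group K)} (hx : x ∈ (TD hK).X1 1) :
    (TD hK).nS 1 * x * ((TD hK).nS 1)⁻¹ ∈ L1 hK :=
  Subgroup.subset_closure (Or.inr ⟨x, hx, rfl⟩)

theorem b2U_mem_L1 (t u : K) : b2U K m t u ∈ L1 hK := X1_le_L1 hK (b2U_X1 hK t u)

/-- The rank one relation lies inside the class. -/
theorem rank_one_class (j : Fin 2) {x : ↥(chevF4.group K)} (hx : x ∈ (TD hK).X1 j) (hne : x ≠ 1) :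
    ∃ u ∈ (TD hK).X1 j, ∃ h ∈ (TD hK).H0, ∃ u' ∈ (TD hK).X1 j,
      (TD hK).nS j * x * ((TD hK).nS j)⁻¹ = u * h * (TD hK).nS j * u' := by
  obtain ⟨hxp, hxf⟩ := (f4Setup K hK).mem_X1.1 hx
  obtain ⟨u, hu, huf, h, hh, u', hu', hu'f, e⟩ := (f4Setup K hK).rank_one j x hxp hxf hne
  refine ⟨u, (f4Setup K hK).mem_X1.2 ⟨hu, huf⟩, h, hh, u',
    (f4Setup K hK).mem_X1.2 ⟨(f4Setup K hK).pos_inf_levi j hu' ?_, hu'f⟩, e⟩
  have hn := (f4Setup K hK).nS_levi j
  have hd : (h : GL chevF4.Idx K) ∈ chevF4.leviSubgroup K ((f4Setup K hK).J j) :=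
    Subgroup.mem_sup_left hh.1
  have e' : u' = (u * h * (TD hK).nS j)⁻¹ * ((TD hK).nS j * x * ((TD hK).nS j)⁻¹) := by
    refine eq_inv_mul_iff_mul_eq.2 ?_
    exact e.symm
  rw [e']
  exact mul_mem (inv_mem (mul_mem (mul_mem ((f4Setup K hK).posSub_cls_le_levi j hu) hd) hn))
    (mul_mem (mul_mem hn ((f4Setup K hK).posSub_cls_le_levi j hxp)) (inv_mem hn))

theorem b2U_ne_one : b2U K m (0 : K) 1 ≠ 1 := by
  intro h
  have h0 : b2U K m (0 : K) 0 = 1 := by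
    rw [b2U, map_zero, mul_zero, add_zero, map_zero, B2Block.word]
    simp [f4Pos, xE, goodF4.xg_zero]
  exact one_ne_zero (b2U_injective (h.trans h0.symm)).2

theorem L1_le_G1 : L1 hK ≤ (TD hK).G1 := by
  have hX : (TD hK).X1 1 ≤ (TD hK).G1 := fun x hx =>
    (TD hK).U1_le_G1 ⟨(TD hK).X_le_U 1 hx.1, hx.2⟩
  have hn : (TD hK).nS 1 ∈ (TD hK).G1 := (TD hK).N0_le_G1 ((TD hK).nS_mem_N0 1)
  refine (Subgroup.closure_le _).2 ?_
  rintro g (hg | ⟨x, hx, rfl⟩)
  · exact hX hg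
  · exact mul_mem (mul_mem hn (hX hx)) (inv_mem hn)

theorem L1_le_levi : (L1 hK).map (chevF4.group K).subtype ≤ chevF4.leviSubgroup K J1 := by
  have hX : ∀ x ∈ (TD hK).X1 1, (x : GL chevF4.Idx K) ∈ chevF4.leviSubgroup K J1 := fun x hx =>
    (f4Setup K hK).posSub_cls_le_levi 1 ((f4Setup K hK).mem_X1.1 hx).1
  have hn : ((TD hK).nS 1 : GL chevF4.Idx K) ∈ chevF4.leviSubgroup K J1 := (f4Setup K hK).nS_levi 1
  rw [L1, MonoidHom.map_closure]
  refine (Subgroup.closure_le _).2 ?_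
  rintro _ ⟨g, (hg | ⟨x, hx, rfl⟩), rfl⟩
  · exact hX g hg
  · exact mul_mem (mul_mem hn (hX x hx)) (inv_mem hn)

theorem nS_one_mem_H0_mul_L1 : ∃ h ∈ (TD hK).H0, h * (TD hK).nS 1 ∈ L1 hK := by
  obtain ⟨u, hu, h, hh, u', hu', e⟩ := rank_one_class hK 1 (b2U_X1 hK (0 : K) 1) b2U_ne_one
  refine ⟨h, hh, ?_⟩
  rw [show h * (TD hK).nS 1 = u⁻¹ * (u * h * (TD hK).nS 1 * u') * u'⁻¹ by group, ← e]
  exact mul_mem (mul_mem (inv_mem (X1_le_L1 hK hu)) (conj_mem_L1 hK (b2U_X1 hK _ _)))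
    (inv_mem (X1_le_L1 hK hu'))

theorem L1_le_Fix : L1 hK ≤ Fix := by
  have hX : ∀ x ∈ (TD hK).X1 1, x ∈ Fix (K := K) := fun x hx => posUnipotent_le_Fix
    (Subgroup.mem_subgroupOf.2 (goodF4.posSub_le_posUnipotent _ ((f4Setup K hK).mem_X1.1 hx).1))
  have hn : ∀ x ∈ (TD hK).X1 1, (TD hK).nS 1 * x * ((TD hK).nS 1)⁻¹ ∈ Fix (K := K) := by
    refine fun x hx => ?_
    have hperm : ∀ r : Fin chevF4.nroots, r.val ∈ [25, 27, 28, 30] → (f4WJ 1 r).val ∈ [17, 19, 20, 22] := by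
      decide +kernel
    have hle : goodF4.posSub (F := K) {r | r ∈ [25, 27, 28, 30]} ≤
        (Fix.map (chevF4.group K).subtype).comap
          (MulAut.conj ((TD hK).nS 1 : GL chevF4.Idx K)).toMonoidHom := by
      refine (Subgroup.closure_le _).2 ?_
      rintro y ⟨r, t, ⟨hr, hrS⟩, rfl⟩
      obtain ⟨c, hc⟩ := goodF4.conj_xg_eq ((f4Setup K hK).nS_mon 1) ⟨r, hr.1⟩
      rw [(f4Setup K hK).nS_perm 1 ⟨r, hr.1⟩] at hc
      exact ⟨xE goodF4 (f4WJ 1 ⟨r, hr.1⟩).val ((c : K) * t),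
        xE_mem_Fix (f4WJ 1 ⟨r, hr.1⟩).2 (Or.inr (hperm ⟨r, hr.1⟩ hrS)) _, (hc t).symm⟩
    obtain ⟨t, u, rfl⟩ := mem_X1 hK hx
    have hm : (b2U K m t u : GL chevF4.Idx K) ∈ goodF4.posSub (F := K) {r | r ∈ [25, 27, 28, 30]} := by
      simpa [f4Cls] using mem_f4Class (b2U_class (m := m) t u)
    obtain ⟨y, hy, e⟩ := hle hm
    exact (show (TD hK).nS 1 * b2U K m t u * ((TD hK).nS 1)⁻¹ = y from Subtype.ext e.symm) ▸ hy
  refine (Subgroup.closure_le _).2 ?_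
  rintro g (hg | ⟨x, hx, rfl⟩)
  · exact hX g hg
  · exact hn x hx

theorem parabolic_normalizes {g w : ↥(chevF4.group K)}
    (hg : (g : GL chevF4.Idx K) ∈ chevF4.leviSubgroup K J1) (hw : w ∈ UP K) : g * w * g⁻¹ ∈ UP K := by
  rw [UP, Subgroup.mem_subgroupOf] at hw ⊢
  have h := goodF4.parabolic_le_normalizer (goodF4.radical_sup_levi.le (Subgroup.mem_sup_right hg))
  exact (Subgroup.mem_normalizer_iff.1 h _).1 hw

theorem UP_le_Fix : UP K ≤ Fix (K := K) := fun g hg => posUnipotent_le_Fix (Subgroup.mem_subgroupOf.2 (by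
  rw [UP, Subgroup.mem_subgroupOf, goodF4.unipotentRadical_eq] at hg
  exact goodF4.posSub_le_posUnipotent _ hg))

/-- Decomposition of a fixed unipotent element along the class. -/
theorem split_class {u : ↥(chevF4.group K)} (hu : u ∈ (TD hK).U1) :
    ∃ x ∈ (TD hK).X1 1, ∃ w ∈ UP K ⊓ (TD hK).G1, u = x * w := by
  obtain ⟨x, hx, u', hu', hc, rfl⟩ := (TD hK).split_fixed 1 hu
  refine ⟨x, hx, u', ⟨?_, (TD hK).U1_le_G1 hu'⟩, rfl⟩
  have hn := (f4Setup K hK).nS_levi (1 : Fin 2)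
  have hpos : (u' : GL chevF4.Idx K) ∈ chevF4.posUnipotent K := ((f4Setup K hK).mem_U1.1 hu').1
  have hpos2 : (((TD hK).nS 1 * u' * ((TD hK).nS 1)⁻¹ : ↥(chevF4.group K)) : GL chevF4.Idx K) ∈
      chevF4.posUnipotent K := ((f4Setup K hK).mem_U1.1 hc).1
  obtain ⟨a, ha, c, hcr, e⟩ := goodF4.factor (goodF4.radSet J1)ᶜ hpos
  rw [compl_compl] at hcr
  have ha' : a ∈ goodF4.posSub {r | chevF4.IsPosRoot r ∧ chevF4.InRootSub ((f4Setup K hK).J 1) r} := by
    refine goodF4.posSub_mono (fun r hr h => ?_) ha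
    exact ⟨hr, by_contra fun hn => h ⟨hr, hn⟩⟩
  let aE : ↥(chevF4.group K) := ⟨a, goodF4.posUnipotent_le_group (goodF4.posSub_le_posUnipotent _ ha)⟩
  let cE : ↥(chevF4.group K) := ⟨c, goodF4.posUnipotent_le_group (goodF4.posSub_le_posUnipotent _ hcr)⟩
  have hcU : cE ∈ UP K := by
    rw [UP, Subgroup.mem_subgroupOf, goodF4.unipotentRadical_eq]; exact hcr
  have he : u' = aE * cE := Subtype.ext e
  have h1 : (TD hK).nS 1 * aE * ((TD hK).nS 1)⁻¹ ∈ (TD hK).V := by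
    refine (TD hK).X_conj_V 1 aE ?_
    show aE ∈ ⨆ r, ⨆ (_ : r ∈ (f4Setup K hK).cls 1), rootX chevF4 K r
    rw [(f4Setup K hK).XJ_eq 1]
    exact ha'
  have h2 : (TD hK).nS 1 * aE * ((TD hK).nS 1)⁻¹ ∈ (TD hK).U := by
    have hcU2 := parabolic_normalizes hn hcU
    rw [UP, Subgroup.mem_subgroupOf, goodF4.unipotentRadical_eq] at hcU2
    rw [(f4Setup K hK).data_U, Subgroup.mem_subgroupOf,
      show (TD hK).nS 1 * aE * ((TD hK).nS 1)⁻¹ = ((TD hK).nS 1 * u' * ((TD hK).nS 1)⁻¹) *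
        ((TD hK).nS 1 * cE * ((TD hK).nS 1)⁻¹)⁻¹ by rw [he]; group]
    exact mul_mem hpos2 (inv_mem (goodF4.posSub_le_posUnipotent _ hcU2))
  have h3 := (TD hK).U_inf_V h2 h1
  rw [conj_eq_one_iff] at h3
  rw [he, h3, one_mul]
  exact hcU

end Cfsg.Agent.H75.ReeCover
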