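import Cfsg.Agent.H75.ReeCover.Cover

/-!
# The diagonal group modulo the Levi part
-/

set_option autoImplicit false
set_option maxRecDepth 100000

open Cfsg.Lie Cfsg.Agent.H46 Cfsg.Agent.H65.Twist Cfsg.Agent.H70.F4Out Cfsg.Agent.H70.F4Mult
open scoped Matrix MatrixGroups

namespace Cfsg.Agent.H75.ReeCover

variable {K : Type*} [Field K] [Fintype K] [CharP K 2] {m : ℕ} (hK : Fintype.card K = 2 ^ (2 * m + 1))

/-- Each diagonal element becomes trivial on the class after multiplication by an element of the Levi part. -/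
theorem exists_wt_one : ∀ h ∈ (TD hK).H0, ∃ t ∈ L1 hK, ∃ a, Wt hK (h * t) a 1 := by
  intro h hh
  obtain ⟨α, β, hw⟩ := exists_wt_of_mem hK hh
  obtain ⟨d, hd⟩ : ∃ d : Kˣ, d ^ 2 = β⁻¹ := by
    have hinj : Function.Injective fun d : Kˣ => d ^ 2 := fun a b e => by
      have h1 : (a * b⁻¹) ^ 2 ^ 1 = 1 := by
        simp only at e
        rw [pow_one, mul_pow, inv_pow, e, mul_inv_cancel]
      exact mul_inv_eq_one.1 (eq_one_of_pow_two_pow h1)
    exact Finite.injective_iff_surjective.1 hinj β⁻¹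
  obtain ⟨s, hs⟩ := exists_wt hK 1 d
  obtain ⟨h', hh', hhL⟩ := nS_one_mem_H0_mul_L1 hK
  obtain ⟨α', β', hw'⟩ := exists_wt_of_mem hK hh'
  refine ⟨s * (h' * (TD hK).nS 1) * s⁻¹ * (h' * (TD hK).nS 1)⁻¹,
    mul_mem (conj_H0_L1 hK hs.1 hhL) (inv_mem hhL), ?_⟩
  have w1 := ((hw'.mul hs.conj.2.inv).mul hw'.inv)
  have e : s * (h' * (TD hK).nS 1) * s⁻¹ * (h' * (TD hK).nS 1)⁻¹ =
      s * (h' * ((TD hK).nS 1 * s * ((TD hK).nS 1)⁻¹)⁻¹ * h'⁻¹) := by group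
  rw [e]
  have w2 := hw.mul (hs.mul w1)
  have hβ : β * (d * (β' * d⁻¹⁻¹ * β'⁻¹)) = 1 := by
    rw [inv_inv, mul_comm β' d, mul_inv_cancel_right, ← pow_two, hd, mul_inv_cancel]
  rw [hβ] at w2
  exact ⟨_, w2⟩

end Cfsg.Agent.H75.ReeCover
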