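import Cfsg.Agent.H75.ReeCover.Cosets

/-!
# The parabolic subgroup in the Gauss form, and centralisers of regular diagonal elements in the radicals
-/

set_option autoImplicit false
set_option maxRecDepth 100000

open Cfsg.Lie Cfsg.Agent.H46 Cfsg.Agent.H65.Twist Cfsg.Agent.H70.F4Out Cfsg.Agent.H70.F4Mult
open scoped Matrix MatrixGroups

namespace Cfsg.Agent.H75.ReeCover

variable {K : Type*} [Field K] [Fintype K] [CharP K 2] {m : ℕ} (hK : Fintype.card K = 2 ^ (2 * m + 1))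

/-- The Levi subgroup inside the twisted group. -/
noncomputable def LP : Subgroup ↥(chevF4.group K) :=
  (chevF4.leviSubgroup K J1).subgroupOf (chevF4.group K) ⊓ (TD hK).G1

theorem H0_le_LP : (TD hK).H0 ≤ LP hK := fun _ hh =>
  Subgroup.mem_inf.2 ⟨Subgroup.mem_subgroupOf.2 (H0_mem_levi hK hh), (TD hK).N0_le_G1 ((TD hK).H0_le_N0 hh)⟩

theorem L1_le_LP : L1 hK ≤ LP hK := fun _ hl =>
  Subgroup.mem_inf.2 ⟨Subgroup.mem_subgroupOf.2 (L1_le_levi hK ⟨_, hl, rfl⟩), L1_le_G1 hK hl⟩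

theorem UP_conj {g w : ↥(chevF4.group K)} (hg : g ∈ LP hK) (hw : w ∈ UP K ⊓ (TD hK).G1) :
    g * w * g⁻¹ ∈ UP K ⊓ (TD hK).G1 :=
  Subgroup.mem_inf.2 ⟨parabolic_normalizes (Subgroup.mem_subgroupOf.1 (Subgroup.mem_inf.1 hg).1) hw.1,
    mul_mem (mul_mem (Subgroup.mem_inf.1 hg).2 hw.2) (inv_mem (Subgroup.mem_inf.1 hg).2)⟩

theorem conj_H0_L1 {h l : ↥(chevF4.group K)} (hh : h ∈ (TD hK).H0) (hl : l ∈ L1 hK) :
    h * l * h⁻¹ ∈ L1 hK := by
  have hX : ∀ h ∈ (TD hK).H0, ∀ x ∈ (TD hK).X1 1, h * x * h⁻¹ ∈ (TD hK).X1 1 := fun h hh x hx => by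
    obtain ⟨α, β, w⟩ := exists_wt_of_mem hK hh
    obtain ⟨t, u, rfl⟩ := mem_X1 hK hx
    rw [w.2.2]
    exact b2U_X1 hK _ _
  have hle : L1 hK ≤ (L1 hK).comap (MulAut.conj h).toMonoidHom := by
    refine (Subgroup.closure_le _).2 ?_
    rintro g (hg | ⟨x, hx, rfl⟩) <;> simp only [SetLike.mem_coe, Subgroup.mem_comap,
      MulEquiv.coe_toMonoidHom, MulAut.conj_apply]
    · exact X1_le_L1 hK (hX h hh g hg)
    · have hh' : ((TD hK).nS 1)⁻¹ * h * (TD hK).nS 1 ∈ (TD hK).H0 := by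
        have := (TD hK).H0_normal (inv_mem ((TD hK).nS_mem_N0 1)) hh
        rwa [inv_inv] at this
      rw [show h * ((TD hK).nS 1 * x * ((TD hK).nS 1)⁻¹) * h⁻¹ = (TD hK).nS 1 *
        ((((TD hK).nS 1)⁻¹ * h * (TD hK).nS 1) * x * (((TD hK).nS 1)⁻¹ * h * (TD hK).nS 1)⁻¹) *
        ((TD hK).nS 1)⁻¹ by group]
      exact conj_mem_L1 hK (hX _ hh' x hx)
  exact hle hl

/-- Conjugation by a representative changes the coefficient of some diagonal element. -/
theorem nw_not_mem (hm : 1 ≤ m) {L : List (Fin 2)} (hL : L ∈ repWords) : nw hK L ∉ Pst (K := K) := by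
  intro hn
  have : Nontrivial Kˣ := by
    rw [← Finite.one_lt_card_iff_nontrivial, Nat.card_units, Nat.card_eq_fintype_card, hK]
    have : 2 ^ 3 ≤ 2 ^ (2 * m + 1) := Nat.pow_le_pow_right (by norm_num) (by omega)
    omega
  obtain ⟨b, hb⟩ := exists_ne (1 : Kˣ)
  obtain ⟨s, hs⟩ := exists_wt hK (val m b (1, 0)) (val m b (0, 0))
  have hw := wt_word hK (w := ((1, 0), (0, 0))) hs L
  have h1 : chi (nw hK L * s * (nw hK L)⁻¹) = chi s := by
    rw [chi_mul _ (inv_mem hn), chi_mul _ (H0_mem_Pst hK hs.1), chi_inv hn, mul_comm (chi (nw hK L)) (chi s),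
      mul_assoc, mul_inv_cancel₀ (chi_ne_zero hn), mul_one]
  rw [chi_val hK hw, chi_val hK (w := ((1, 0), (0, 0))) hs] at h1
  have h1' : val m b (chiW (wordW L ((1, 0), (0, 0)))) = val m b (chiW ((1, 0), (0, 0))) := Units.ext h1
  have hd : val m b (chiW ((1, 0), (0, 0))) = val m b (diffW L) * val m b (chiW (wordW L ((1, 0), (0, 0)))) := by
    rw [val_add]
    refine congrArg (val m b) (Prod.ext ?_ ?_) <;> simp [diffW]
  rw [h1'] at hd
  have hd1 : val m b (diffW L) = 1 := by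
    simpa using hd.symm
  obtain ⟨k, hk⟩ : ∃ k, normExp (diffW L) = 2 ^ k := by
    have := diff_facts L hL
    simp only [List.mem_cons, List.not_mem_nil, or_false] at this
    rcases this with h | h | h | h <;> exact ⟨_, h⟩
  exact val_ne_one hK hb hk hd1

/-- The decomposition of the stabiliser of the highest root line. -/
theorem exists_pForm (hm : 1 ≤ m) {p : ↥(chevF4.group K)} (hp : p ∈ Pst (K := K) ⊓ (TD hK).G1) :
    ∃ l ∈ L1 hK, ∃ t ∈ (TD hK).H0, ∃ w ∈ UP K ⊓ (TD hK).G1, p = l * t * w := by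
  obtain ⟨μ, hμ, u, hu, h, hh, u', hu', e⟩ := (TD hK).exists_cell hp.2
  have hU : ∀ {y}, y ∈ (TD hK).U1 → y ∈ Pst (K := K) := fun {y} hy =>
    fix_le (posUnipotent_le_Fix (Subgroup.mem_subgroupOf.2 ((f4Setup K hK).mem_U1.1 hy).1))
  obtain ⟨h', hh', hhL⟩ := nS_one_mem_H0_mul_L1 hK
  have hn1P : (TD hK).nS 1 ∈ Pst (K := K) := by
    have := mul_mem (inv_mem (H0_mem_Pst hK hh')) (fix_le (L1_le_Fix hK hhL))
    rwa [inv_mul_cancel_left] at this
  have hw : μ * h ∈ (TD hK).N0 := mul_mem hμ ((TD hK).H0_le_N0 hh)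
  have hwP : μ * h ∈ Pst (K := K) := by
    rw [show μ * h = u⁻¹ * p * u'⁻¹ by rw [e]; group]
    exact mul_mem (mul_mem (inv_mem (hU hu)) hp.1) (inv_mem (hU hu'))
  obtain ⟨d, hd⟩ := (f4Table K hK).exists_perm hw
  have hdiag : ∀ y ∈ (TD hK).N0, goodF4.perm (y : GL chevF4.Idx K) = 1 → y ∈ (TD hK).H0 := fun y hy h1 =>
    (TD hK).N0_inf_H' hy ((goodF4.perm_eq_one_iff (mon_of_N0 hK hy)).1 h1)
  have lift : ∀ A ∈ [1, f4Gen 1], ∃ a ∈ (TD hK).N0, a ∈ Pst (K := K) ∧ a ∈ (TD hK).H0 ⊔ L1 hK ∧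
      goodF4.perm (a : GL chevF4.Idx K) = (f4Table K hK).perm A := by
    intro A hA
    simp only [List.mem_cons, List.not_mem_nil, or_false] at hA
    rcases hA with rfl | rfl
    · exact ⟨nw hK [], nw_mem hK [], by rw [show nw hK [] = 1 from rfl]; exact one_mem _,
        by rw [show nw hK [] = 1 from rfl]; exact one_mem _, perm_nw hK []⟩
    · refine ⟨nw hK [1], nw_mem hK [1], by rw [nw_single]; exact hn1P, ?_, ?_⟩
      · rw [nw_single, show (TD hK).nS 1 = h'⁻¹ * (h' * (TD hK).nS 1) by group]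
        exact mul_mem (Subgroup.mem_sup_left (inv_mem hh')) (Subgroup.mem_sup_right hhL)
      · rw [perm_nw, show idxW [1] = f4Gen 1 by simp [idxW]]
  have hmid : μ * h ∈ (TD hK).H0 ⊔ L1 hK := by
    by_cases h47 : appR f4Wn (f4Word d) 47 = 47
    · obtain ⟨a, haN, -, haS, ha⟩ := lift d (by rcases (weyl_cases d).1 h47 with rfl | rfl <;> simp)
      have := hdiag (a⁻¹ * (μ * h)) (mul_mem (inv_mem haN) hw) (by
        rw [Subgroup.coe_mul, Subgroup.coe_inv, goodF4.perm_mul (inv_mem (mon_of_N0 hK haN)) (mon_of_N0 hK hw),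
          goodF4.perm_inv (mon_of_N0 hK haN), hd, ha, inv_mul_cancel])
      have h2 := mul_mem haS (Subgroup.mem_sup_left (T := L1 hK) this)
      rwa [mul_inv_cancel_left] at h2
    · exfalso
      obtain ⟨L, hL, A, hA, B, hB, rfl⟩ := (weyl_cases d).2 h47
      obtain ⟨a, haN, haP, -, ha⟩ := lift A hA
      obtain ⟨b, hbN, hbP, -, hb⟩ := lift B hB
      have hanb : a * nw hK L * b ∈ (TD hK).N0 := mul_mem (mul_mem haN (nw_mem hK L)) hbN
      have hdP : (a * nw hK L * b)⁻¹ * (μ * h) ∈ Pst (K := K) := by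
        refine H0_mem_Pst hK (hdiag _ (mul_mem (inv_mem hanb) hw) ?_)
        rw [Subgroup.coe_mul, Subgroup.coe_inv, goodF4.perm_mul (inv_mem (mon_of_N0 hK hanb)) (mon_of_N0 hK hw),
          goodF4.perm_inv (mon_of_N0 hK hanb), hd, Subgroup.coe_mul, Subgroup.coe_mul,
          goodF4.perm_mul (mul_mem (mon_of_N0 hK haN) (mon_of_N0 hK (nw_mem hK L))) (mon_of_N0 hK hbN),
          goodF4.perm_mul (mon_of_N0 hK haN) (mon_of_N0 hK (nw_mem hK L)), ha, hb, perm_nw,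
          (f4Table K hK).perm_mul, (f4Table K hK).perm_mul, inv_mul_cancel]
      refine nw_not_mem hK hm hL ?_
      have h2 : a * nw hK L * b ∈ Pst (K := K) := by
        have := mul_mem hwP (inv_mem hdP)
        rwa [mul_inv_rev, inv_inv, mul_inv_cancel_left] at this
      have h3 := mul_mem (mul_mem (inv_mem haP) h2) (inv_mem hbP)
      rwa [show a⁻¹ * (a * nw hK L * b) * b⁻¹ = nw hK L by group] at h3
  obtain ⟨x, hx, w1, hw1, rfl⟩ := split_class hK hu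
  obtain ⟨x', hx', w2, hw2, rfl⟩ := split_class hK hu'
  have hS : x * (μ * h) * x' ∈ (TD hK).H0 ⊔ L1 hK :=
    mul_mem (mul_mem (Subgroup.mem_sup_right (X1_le_L1 hK hx)) hmid) (Subgroup.mem_sup_right (X1_le_L1 hK hx'))
  have hnorm : (TD hK).H0 ≤ Subgroup.normalizer (L1 hK : Set ↥(chevF4.group K)) := fun g hg => by
    refine Subgroup.mem_normalizer_iff.2 fun l => ⟨fun hl => conj_H0_L1 hK hg hl, fun hl => ?_⟩
    have := conj_H0_L1 hK (inv_mem hg) hl
    rwa [inv_inv, show g⁻¹ * (g * l * g⁻¹) * g = l by group] at this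
  obtain ⟨l, hl, t, ht, hlt⟩ : ∃ l ∈ L1 hK, ∃ t ∈ (TD hK).H0, l * t = x * (μ * h) * x' := by
    rw [sup_comm, ← SetLike.mem_coe, Subgroup.coe_mul_of_right_le_normalizer_left _ _ hnorm] at hS
    obtain ⟨l, hl, t, ht, hlt⟩ := Set.mem_mul.1 hS
    exact ⟨l, hl, t, ht, hlt⟩
  have hg : ((μ * h) * x')⁻¹ ∈ LP hK := by
    refine inv_mem (mul_mem ?_ (L1_le_LP hK (X1_le_L1 hK hx')))
    exact (sup_le (H0_le_LP hK) (L1_le_LP hK)) hmid
  refine ⟨l, hl, t, ht, ((μ * h) * x')⁻¹ * w1 * ((μ * h) * x') * w2, mul_mem ?_ hw2, ?_⟩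
  · have := UP_conj hK hg hw1
    rwa [inv_inv] at this
  · rw [e, hlt]
    group

theorem rad_exponents : ∀ r : Fin 48, isRad r.val = true →
    normExp (goodF4.rc r.val ⟨0, by decide⟩, goodF4.rc r.val ⟨3, by decide⟩) ∈ [1, 2, 4, 8] := by
  decide +kernel

theorem cls_facts : (∀ r : Fin chevF4.nroots, r.val ∈ [25, 27, 28, 30] → r ∈ f4ClsF 1) ∧
    (∀ r : Fin 48, r.val ∈ [25, 27, 28, 30] → permN [0, 1, 0, 1, 0, 1, 0] r.val ∈ [25, 27, 28, 30] ∧
      24 ≤ permN [0, 1, 0, 1, 0, 1, 0] r.val) ∧ idxW ([1, 0, 1, 0, 1, 0, 1, 0] ++ [1] ++ topL) = f4Gen 1 ∧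
    wordW topL.reverse ((1, 0), (0, 0)) = ((-1, 0), (0, 0)) := by
  decide +kernel

/-- The radical has no element fixed by a diagonal element trivial on the class and not on the other one. -/
theorem regular_UP {y v : ↥(chevF4.group K)} {β : Kˣ} (hy : Wt hK y β 1) (hβ : β ≠ 1) (hv : v ∈ UP K)
    (hc : y * v * y⁻¹ = v) : v = 1 := by
  obtain ⟨z, hz⟩ := goodF4.mem_diagonal.1 (Subgroup.mem_subgroupOf.1 (Subgroup.mem_inf.1 hy.1).1)
  obtain rfl : y = torusE goodF4 z := Subtype.ext hz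
  have hzf := (f4Setup K hK).W_fixed _ (Subgroup.mem_inf.1 hy.1).2
  have a24 : goodF4.torusVal z 24 = β := Units.ext (by
    have := pairU_injective ((torus_conj_pairU hK hzf 1).symm.trans (hy.2.1 1))
    simpa using this)
  have b25 : goodF4.torusVal z 25 = 1 := Units.ext (by
    have := (b2U_injective ((torus_conj_b2U hK hzf 1 0).symm.trans (hy.2.2 1 0))).1
    simpa using this)
  have p33 : goodF4.torusVal z 24 = phiU K m (goodF4.torusVal z 33) :=
    Units.ext ((torus_fixed_f4 hK z).1 hzf).1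
  have p27 : goodF4.torusVal z 25 = phiU K m (goodF4.torusVal z 27) :=
    Units.ext ((torus_fixed_f4 hK z).1 hzf).2
  set a := goodF4.torusVal z 33 with ha
  have ha1 : a ≠ 1 := fun h => hβ (by rw [← a24, p33, h, map_one])
  have b27 : goodF4.torusVal z 27 = 1 := by
    refine Units.ext ((iterateFrobenius K 2 (m + 1)).injective ?_)
    rw [Units.val_one, map_one]
    exact (congrArg Units.val (p27.symm.trans b25) : _)
  have hval : ∀ r, goodF4.torusVal z r = val m a (goodF4.rc r ⟨0, by decide⟩, goodF4.rc r ⟨3, by decide⟩) := by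
    intro r
    obtain ⟨s0, s1, s2, s3, -⟩ := f4_simple_facts
    rw [Cfsg.Agent.H23.RegularTorus.torusVal_eq_prod goodF4 z r]
    have h4 : ∀ (f : Fin chevF4.rank → Kˣ), ∏ k, f k = f ⟨0, by decide⟩ * f ⟨1, by decide⟩ * f ⟨2, by decide⟩ *
        f ⟨3, by decide⟩ := fun f => Fin.prod_univ_four f
    rw [h4]
    simp only [s0, s1, s2, s3, b27, b25, one_zpow, mul_one, p33, val]
    rfl
  rw [UP, Subgroup.mem_subgroupOf, posSub_radical] at hv
  obtain ⟨t, ⟨ht, hvt⟩, -⟩ := goodF4.posSub_normal_form goodF4.posClosed_radSet hv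
  have hc' : goodF4.torus z * (v : GL chevF4.Idx K) * (goodF4.torus z)⁻¹ = (v : GL chevF4.Idx K) := by
    have := congrArg Subtype.val hc
    exact this
  rw [hvt, Cfsg.Agent.H23.RegularTorus.torus_conj_ordProd] at hc'
  have h0 : ∀ r, chevF4.nroots / 2 ≤ r → r < chevF4.nroots → t r = 0 := fun r h1 h2 => by
    by_cases hr : r ∈ goodF4.radSet J1 ∧ chevF4.IsPosRoot r
    · have h := goodF4.ordProd_injective _ le_rfl _ _ hc' r h1 h2
      by_contra hne
      have hrad : isRad r = true := by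
        simp only [isRad, decide_eq_true_eq]
        refine ⟨(goodF4.isPosRoot_iff.1 hr.2).1, hr.2.1, fun hmem => hr.1.2 ?_⟩
        exact (((f4Setup K hK).cls_pos 1 ⟨r, h2⟩).1 (cls_facts.1 ⟨r, h2⟩ hmem)).2
      obtain ⟨k, hk⟩ : ∃ k, normExp (goodF4.rc r ⟨0, by decide⟩, goodF4.rc r ⟨3, by decide⟩) = 2 ^ k := by
        have := rad_exponents ⟨r, h2⟩ hrad
        simp only [List.mem_cons, List.not_mem_nil, or_false] at this
        rcases this with h | h | h | h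
        exacts [⟨0, h⟩, ⟨1, h⟩, ⟨2, h⟩, ⟨3, h⟩]
      refine val_ne_one hK ha1 hk ?_
      rw [← hval]
      exact Units.ext (mul_right_cancel₀ hne (h.trans (one_mul (t r)).symm))
    · exact ht r (not_and_or.1 hr)
  refine Subtype.ext ?_
  rw [hvt, goodF4.ordProd_congr (t' := fun _ => 0) h0]
  exact List.prod_eq_one fun x hx => by
    obtain ⟨r, -, rfl⟩ := List.mem_map.1 hx
    exact goodF4.xg_zero r

theorem nw_top_inv : (nw hK topL)⁻¹ = nw hK [1, 0, 1, 0, 1, 0, 1, 0] := (nw_reverse hK topL).symm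

theorem mem_UN_iff' {g : ↥(chevF4.group K)} :
    g ∈ UN hK ↔ nw hK topL.reverse * g * (nw hK topL.reverse)⁻¹ ∈ UP K := by
  rw [mem_UN_iff, nw_reverse, inv_inv]

/-- The opposite radical has no element fixed by such a diagonal element. -/
theorem regular_UN {y v : ↥(chevF4.group K)} {β : Kˣ} (hy : Wt hK y β 1) (hβ : β ≠ 1) (hv : v ∈ UN hK)
    (hc : y * v * y⁻¹ = v) : v = 1 := by
  set n := nw hK topL.reverse
  have hy' : Wt hK y (val m β (1, 0)) (val m β (0, 0)) := by simpa [val] using hy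
  have hw := wt_word hK (w := ((1, 0), (0, 0))) hy' topL.reverse
  rw [cls_facts.2.2.2] at hw
  have hw' : Wt hK (n * y * n⁻¹) β⁻¹ 1 := by simpa [val] using hw
  have h1 := regular_UP hK hw' (by simpa using hβ) ((mem_UN_iff' hK).1 hv) (by
    calc n * y * n⁻¹ * (n * v * n⁻¹) * (n * y * n⁻¹)⁻¹ = n * (y * v * y⁻¹) * n⁻¹ := by group
      _ = _ := by rw [hc])
  exact conj_eq_one_iff.1 h1

/-- The Levi subgroup is stable under the longest representative. -/
theorem conj_top_levi {g : ↥(chevF4.group K)} (hg : g ∈ L1 hK ∨ g ∈ (TD hK).H0) :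
    nw hK topL.reverse * g * (nw hK topL.reverse)⁻¹ ∈ LP hK := by
  set n := nw hK topL.reverse
  rcases hg with hg | hg
  swap
  · exact H0_le_LP hK ((TD hK).H0_normal (nw_mem hK _) hg)
  have hnG : n ∈ (TD hK).G1 := (TD hK).N0_le_G1 (nw_mem hK _)
  have hcls : ∀ r : Fin chevF4.nroots, r.val ∈ [25, 27, 28, 30] →
      chevF4.IsPosRoot r.val ∧ chevF4.InRootSub ((f4Setup K hK).J 1) r.val := fun r hr =>
    ((f4Setup K hK).cls_pos 1 r).1 (cls_facts.1 r hr)
  have hX : ∀ x ∈ (TD hK).X1 1, n * x * n⁻¹ ∈ LP hK := fun x hx => by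
    refine Subgroup.mem_inf.2 ⟨?_, mul_mem (mul_mem hnG (L1_le_G1 hK (X1_le_L1 hK hx))) (inv_mem hnG)⟩
    set m7 := nw hK [0, 1, 0, 1, 0, 1, 0] with hm7
    rw [show n = (TD hK).nS 1 * m7 from nw_cons hK 1 [0, 1, 0, 1, 0, 1, 0],
      show (TD hK).nS 1 * m7 * x * ((TD hK).nS 1 * m7)⁻¹ =
        (TD hK).nS 1 * (m7 * x * m7⁻¹) * ((TD hK).nS 1)⁻¹ by group, Subgroup.mem_subgroupOf,
      Subgroup.coe_mul, Subgroup.coe_mul, Subgroup.coe_inv]
    have hn := (f4Setup K hK).nS_levi 1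
    refine mul_mem (mul_mem hn ((f4Setup K hK).posSub_cls_le_levi 1 ?_)) (inv_mem hn)
    rw [Subgroup.coe_mul, Subgroup.coe_mul, Subgroup.coe_inv]
    refine goodF4.posSub_mono (S := {r | r ∈ clsN 1}) (fun r hr h => hcls ⟨r, hr.1⟩ h) ?_
    refine conj_posSub (mon_of_N0 hK (nw_mem hK _)) (fun r hr => ?_) (cls_val hK 1 hx)
    rw [perm_nw_val]
    exact cls_facts.2.1 ⟨r.val, r.2⟩ hr
  have hn1 : n * (TD hK).nS 1 * n⁻¹ ∈ LP hK := by
    set L : List (Fin 2) := [1, 0, 1, 0, 1, 0, 1, 0] ++ [1] ++ topL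
    have e : nw hK L = n * (TD hK).nS 1 * n⁻¹ := by
      rw [nw_append, nw_append, nw_single, show n⁻¹ = nw hK topL by rw [← nw_reverse, List.reverse_reverse]]
      rfl
    have hmem : nw hK L * ((TD hK).nS 1)⁻¹ ∈ (TD hK).H0 := by
      have hN : nw hK L * ((TD hK).nS 1)⁻¹ ∈ (TD hK).N0 := mul_mem (nw_mem hK L) (inv_mem ((TD hK).nS_mem_N0 1))
      refine (TD hK).N0_inf_H' hN ((goodF4.perm_eq_one_iff (mon_of_N0 hK hN)).1 ?_)
      rw [Subgroup.coe_mul, Subgroup.coe_inv,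
        goodF4.perm_mul (mon_of_N0 hK (nw_mem hK L)) (inv_mem (mon_of_N0 hK ((TD hK).nS_mem_N0 1))),
        goodF4.perm_inv (mon_of_N0 hK ((TD hK).nS_mem_N0 1)), perm_nw, cls_facts.2.2.1,
        ← nw_single hK 1, perm_nw, show idxW [1] = f4Gen 1 by simp [idxW], mul_inv_cancel]
    rw [← e, show nw hK L = nw hK L * ((TD hK).nS 1)⁻¹ * (TD hK).nS 1 by group]
    exact mul_mem (H0_le_LP hK hmem) (Subgroup.mem_inf.2
      ⟨Subgroup.mem_subgroupOf.2 ((f4Setup K hK).nS_levi 1), (TD hK).N0_le_G1 ((TD hK).nS_mem_N0 1)⟩)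
  have hle : L1 hK ≤ (LP hK).comap (MulAut.conj n).toMonoidHom := by
    refine (Subgroup.closure_le _).2 ?_
    rintro g (hg | ⟨x, hx, rfl⟩) <;> simp only [SetLike.mem_coe, Subgroup.mem_comap,
      MulEquiv.coe_toMonoidHom, MulAut.conj_apply]
    · exact hX g hg
    · rw [show n * ((TD hK).nS 1 * x * ((TD hK).nS 1)⁻¹) * n⁻¹ =
        (n * (TD hK).nS 1 * n⁻¹) * (n * x * n⁻¹) * (n * (TD hK).nS 1 * n⁻¹)⁻¹ by group]
      exact mul_mem (mul_mem hn1 (hX x hx)) (inv_mem hn1)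
  exact hle hg

theorem UN_conj {g v : ↥(chevF4.group K)} (hg : g ∈ L1 hK ∨ g ∈ (TD hK).H0) (hv : v ∈ UN hK ⊓ (TD hK).G1) :
    g * v * g⁻¹ ∈ UN hK ⊓ (TD hK).G1 := by
  have hgG : g ∈ (TD hK).G1 := by
    rcases hg with h | h
    exacts [L1_le_G1 hK h, (TD hK).N0_le_G1 ((TD hK).H0_le_N0 h)]
  refine Subgroup.mem_inf.2 ⟨(mem_UN_iff' hK).2 ?_, mul_mem (mul_mem hgG hv.2) (inv_mem hgG)⟩
  have := parabolic_normalizes (Subgroup.mem_subgroupOf.1 (Subgroup.mem_inf.1 (conj_top_levi hK hg)).1)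
    ((mem_UN_iff' hK).1 hv.1)
  convert this using 1
  group

end Cfsg.Agent.H75.ReeCover
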