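import Cfsg.Agent.H75.ReeCover.Cover

/-!
# Transfer to abstract groups of type ²F₄
-/

set_option autoImplicit false
set_option maxRecDepth 100000

open Cfsg.Lie Cfsg.Agent.H46 Cfsg.Agent.H65.Twist Cfsg.Agent.H70.F4Out Cfsg.Agent.H70.F4Mult
open scoped Matrix MatrixGroups

namespace Cfsg.Agent.H75.ReeCover

variable {K : Type*} [Field K] [Fintype K] [CharP K 2] {m : ℕ} (hK : Fintype.card K = 2 ^ (2 * m + 1))

/-- The covering passes to isomorphic groups. -/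
theorem cover_transport {M : Type*} [Group M] (e : M ≃* ↥(twistedF4 K (2 ^ m)))
    (h : ∃ x ∈ (TD hK).G1, Odd (orderOf x) ∧ ∀ g ∈ (TD hK).G1, g ≠ 1 →
      ∃ u ∈ (TD hK).G1, ∃ v ∈ (TD hK).G1, g = (u * x * u⁻¹) * (v * x * v⁻¹)) :
    ∃ x : M, Odd (orderOf x) ∧ ∀ g : M, g ≠ 1 → ∃ u v : M, g = (u * x * u⁻¹) * (v * x * v⁻¹) := by
  have hG1 : (TD hK).G1 = f4W K m := (f4Setup K hK).G1_eq
  let j : ↥(f4W K m) ≃* ↥(twistedF4 K (2 ^ m)) := Subgroup.subgroupOfEquivOfLe twistedF4_le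
  let f : M ≃* ↥(TD hK).G1 := e.trans (j.symm.trans (MulEquiv.subgroupCongr hG1.symm))
  obtain ⟨x, hx, hodd, hcov⟩ := h
  refine ⟨f.symm ⟨x, hx⟩, ?_, fun g hg => ?_⟩
  · rwa [MulEquiv.orderOf_eq, Subgroup.orderOf_mk]
  have hne : (f g : ↥(chevF4.group K)) ≠ 1 := fun h1 => hg (f.injective (by
    rw [map_one]; exact Subtype.ext h1))
  obtain ⟨u, hu, v, hv, he⟩ := hcov (f g) (f g).2 hne
  refine ⟨f.symm ⟨u, hu⟩, f.symm ⟨v, hv⟩, f.injective ?_⟩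
  simp only [map_mul, map_inv, MulEquiv.apply_symm_apply]
  exact Subtype.ext he

end Cfsg.Agent.H75.ReeCover
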